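import Mathlib

/-!
# Orbits on chains of subspaces (helper131, for S4785, part C4)

`Chain F V c` : chains of subspaces of dimensions `c, c + 1, …, n = dim V`.  A group `H` acting on `V` fixes the line of
`v` and contains all transvections `x ↦ x + φ x v`.  Let `o c` be the number of orbits of `H` on the chains and `f c` the
number of orbits on the chains whose smallest member contains `v`.  Then `o c = f c + (n - c) f (c + 1)` and
`f 1 = f 2`.  Hence for `n` odd `o 1`, `o 2`, `o 3` are not all odd (`not_all_odd`).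
-/

set_option autoImplicit false

namespace Cfsg.Agent.H131.OddChain

open Module

/-! ### Numbers of orbits -/

section orbs

variable {H : Type*} [Group H]

/-- the number of orbits meeting `s` -/
noncomputable def orbs (H : Type*) [Group H] {Ω : Type*} [MulAction H Ω] (s : Set Ω) : ℕ :=
  ((fun a => (Quotient.mk (MulAction.orbitRel H Ω) a)) '' s).ncard

theorem mk_eq {Ω : Type*} [MulAction H Ω] {a b : Ω} :
    (Quotient.mk (MulAction.orbitRel H Ω) a = Quotient.mk (MulAction.orbitRel H Ω) b) ↔ ∃ h : H, h • b = a := by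
  rw [Quotient.eq, MulAction.orbitRel_apply]
  rfl

theorem orbs_univ {Ω : Type*} [MulAction H Ω] :
    orbs H (Set.univ : Set Ω) = Nat.card (MulAction.orbitRel.Quotient H Ω) := by
  unfold orbs
  rw [Set.image_univ, Set.range_eq_univ.2 Quotient.mk_surjective, Set.ncard_univ]

theorem orbs_empty {Ω : Type*} [MulAction H Ω] : orbs H (∅ : Set Ω) = 0 := by
  unfold orbs
  rw [Set.image_empty, Set.ncard_empty]

theorem orbs_union {Ω : Type*} [MulAction H Ω] [Finite Ω] {s t : Set Ω} (hd : ∀ a ∈ s, ∀ h : H, h • a ∉ t) :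
    orbs H (s ∪ t) = orbs H s + orbs H t := by
  unfold orbs
  rw [Set.image_union]
  refine Set.ncard_union_eq ?_ (Set.toFinite _) (Set.toFinite _)
  rw [Set.disjoint_left]
  rintro _ ⟨a, ha, rfl⟩ ⟨b, hb, hab⟩
  obtain ⟨h, rfl⟩ := mk_eq.1 hab
  exact hd a ha h hb

theorem orbs_congr {Ω Ω' : Type*} [MulAction H Ω] [MulAction H Ω'] {s : Set Ω} {s' : Set Ω'} (Φ : Ω → Ω')
    (hm : ∀ a ∈ s, Φ a ∈ s') (he : ∀ a ∈ s, ∀ h : H, Φ (h • a) = h • Φ a) (hi : ∀ a ∈ s, ∀ h : H, h • a ∈ s)
    (hs : ∀ b ∈ s', ∃ a ∈ s, Φ a = b) (hf : ∀ a ∈ s, ∀ b ∈ s, Φ a = Φ b → ∃ h : H, h • a = b) :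
    orbs H s = orbs H s' := by
  unfold orbs
  refine Set.ncard_congr (fun o ho => Quotient.mk _ (Φ ho.choose)) ?_ ?_ ?_
  · intro o ho
    exact ⟨_, hm _ ho.choose_spec.1, rfl⟩
  · intro o o' ho ho' hoo
    obtain ⟨h, hh⟩ := mk_eq.1 hoo
    rw [← he _ ho'.choose_spec.1] at hh
    obtain ⟨k, hk⟩ := hf _ (hi _ ho'.choose_spec.1 h) _ ho.choose_spec.1 hh
    rw [← ho.choose_spec.2, ← ho'.choose_spec.2]
    refine mk_eq.2 ⟨k * h, ?_⟩
    rw [mul_smul, hk]
  · rintro _ ⟨b, hb, rfl⟩
    obtain ⟨a, ha, rfl⟩ := hs b hb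
    have ho : (Quotient.mk (MulAction.orbitRel H Ω) a) ∈ (fun a => (Quotient.mk (MulAction.orbitRel H Ω) a)) '' s :=
      ⟨a, ha, rfl⟩
    refine ⟨_, ho, ?_⟩
    obtain ⟨h, hh⟩ := mk_eq.1 ho.choose_spec.2
    refine mk_eq.2 ⟨h, ?_⟩
    rw [← he _ ha, hh]

end orbs

/-! ### Linear algebra -/

section lin

variable {F V : Type*} [Field F] [AddCommGroup V] [Module F V] [FiniteDimensional F V]

omit [FiniteDimensional F V] in
theorem inf_span {X : Submodule F V} {v : V} (hv : v ∉ X) : X ⊓ F ∙ v = ⊥ := by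
  rw [eq_bot_iff]
  rintro x ⟨hx, hx'⟩
  obtain ⟨a, rfl⟩ := Submodule.mem_span_singleton.1 hx'
  rcases eq_or_ne a 0 with rfl | ha
  · rw [zero_smul]; exact Submodule.zero_mem _
  · exact absurd ((Submodule.smul_mem_iff X ha).1 hx) hv

theorem finrank_sup {X : Submodule F V} {v : V} (hv : v ∉ X) : finrank F ↥(X ⊔ F ∙ v) = finrank F X + 1 := by
  have hv0 : v ≠ 0 := fun h => hv (h ▸ X.zero_mem)
  have h1 := Submodule.finrank_sup_add_finrank_inf_eq X (F ∙ v)
  rw [inf_span hv, finrank_bot, finrank_span_singleton hv0] at h1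
  exact h1

omit [FiniteDimensional F V] in
theorem exists_compl {Z : Submodule F V} {v : V} (hv : v ∈ Z) (hv0 : v ≠ 0) :
    ∃ X : Submodule F V, X ⊔ F ∙ v = Z ∧ v ∉ X := by
  obtain ⟨W, hW⟩ := Submodule.exists_isCompl (F ∙ v)
  have hle : F ∙ v ≤ Z := (Submodule.span_singleton_le_iff_mem v Z).2 hv
  refine ⟨Z ⊓ W, ?_, fun h => ?_⟩
  · rw [inf_sup_assoc_of_le W hle, sup_comm W, hW.sup_eq_top, inf_top_eq]
  · have h1 : v ∈ (F ∙ v) ⊓ W := ⟨Submodule.mem_span_singleton_self v, h.2⟩
    rw [hW.inf_eq_bot] at h1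
    exact hv0 ((Submodule.mem_bot F).1 h1)

omit [FiniteDimensional F V] in
theorem inf_sup_eq {X Y : Submodule F V} {v : V} (hv : v ∈ Y) (h : Y ≤ X ⊔ F ∙ v) : (X ⊓ Y) ⊔ F ∙ v = Y := by
  have hle : F ∙ v ≤ Y := (Submodule.span_singleton_le_iff_mem v Y).2 hv
  rw [inf_comm, inf_sup_assoc_of_le X hle, inf_eq_left.2 h]

omit [FiniteDimensional F V] in
/-- the transvections are transitive on the complements of `v` -/
theorem exists_transvection {X X' : Submodule F V} {v : V} (hX : v ∉ X) (hX' : v ∉ X')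
    (h : X ⊔ F ∙ v = X' ⊔ F ∙ v) : ∃ φ : V →ₗ[F] F, φ v = 0 ∧ ∀ x ∈ X, x + φ x • v ∈ X' := by
  obtain ⟨f, hf, hfX⟩ := Submodule.exists_le_ker_of_notMem hX
  obtain ⟨g, hg, hgX⟩ := Submodule.exists_le_ker_of_notMem hX'
  refine ⟨(f v)⁻¹ • f - (g v)⁻¹ • g, ?_, ?_⟩
  · simp [hf, hg]
  · intro x hx
    have h1 : f x = 0 := hfX hx
    have h2 : x ∈ X' ⊔ F ∙ v := by
      rw [← h]
      exact Submodule.mem_sup_left hx
    obtain ⟨y, hy, z, hz, rfl⟩ := Submodule.mem_sup.1 h2
    obtain ⟨a, rfl⟩ := Submodule.mem_span_singleton.1 hz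
    have h3 : g y = 0 := hgX hy
    have h4 : (((f v)⁻¹ • f - (g v)⁻¹ • g) (y + a • v)) = -a := by
      rw [LinearMap.sub_apply, LinearMap.smul_apply, LinearMap.smul_apply, h1, map_add, h3, map_smul, smul_zero,
        zero_add, zero_sub, smul_eq_mul, smul_eq_mul]
      field_simp
    rw [h4, neg_smul, add_neg_cancel_right]
    exact hy

end lin

/-! ### Chains -/

/-- chains of subspaces of dimensions `c, c + 1, …, dim V` -/
@[ext]
structure Chain (F V : Type*) [Field F] [AddCommGroup V] [Module F V] (c : ℕ) where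
  S : ℕ → Submodule F V
  mono : Monotone S
  bot : ∀ i < c, S i = ⊥
  rank : ∀ i, c ≤ i → finrank F (S i) = min i (finrank F V)

namespace Chain

variable {F V : Type*} [Field F] [AddCommGroup V] [Module F V] {c : ℕ}

/-- the image of a chain -/
def map (e : V ≃ₗ[F] V) (C : Chain F V c) : Chain F V c where
  S i := (C.S i).map (e : V →ₗ[F] V)
  mono i j h := Submodule.map_mono (C.mono h)
  bot i h := by rw [C.bot i h, Submodule.map_bot]
  rank i h := by
    rw [← C.rank i h]
    exact (LinearEquiv.finrank_eq (e.submoduleMap (C.S i))).symm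

theorem map_S (e : V ≃ₗ[F] V) (C : Chain F V c) (i : ℕ) : (C.map e).S i = (C.S i).map (e : V →ₗ[F] V) := rfl

instance mulAction : MulAction (V ≃ₗ[F] V) (Chain F V c) where
  smul e C := C.map e
  one_smul C := Chain.ext (funext fun i => Submodule.map_id (C.S i))
  mul_smul e f C := Chain.ext (funext fun i => Submodule.map_comp (f : V →ₗ[F] V) (e : V →ₗ[F] V) (C.S i))

theorem smul_eq (e : V ≃ₗ[F] V) (C : Chain F V c) : e • C = C.map e := rfl

theorem eq_top [FiniteDimensional F V] (C : Chain F V c) {i : ℕ} (hc : c ≤ i) (hi : finrank F V ≤ i) : C.S i = ⊤ := by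
  apply Submodule.eq_top_of_finrank_eq
  rw [C.rank i hc, min_eq_right hi]

theorem finite_chain [Finite V] [FiniteDimensional F V] : Finite (Chain F V c) := by
  have h1 : Finite (Submodule F V) := Finite.of_injective (fun X => (X : Set V)) SetLike.coe_injective
  refine Finite.of_injective (fun (C : Chain F V c) (i : Fin (c + finrank F V)) => C.S i) ?_
  intro C C' h
  refine Chain.ext (funext fun i => ?_)
  by_cases hi : i < c + finrank F V
  · exact congrFun h ⟨i, hi⟩
  · rw [C.eq_top (by omega) (by omega), C'.eq_top (by omega) (by omega)]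

variable [FiniteDimensional F V] {v : V}

open Classical in
/-- the chain of the images modulo `v` -/
noncomputable def up (v : V) (C : Chain F V c) : Chain F V (c + 1) where
  S i := if i ≤ c then ⊥ else if v ∈ C.S i then C.S i else C.S (i - 1) ⊔ F ∙ v
  mono := by
    refine monotone_nat_of_le_succ fun i => ?_
    by_cases h1 : i ≤ c
    · rw [if_pos h1]
      exact bot_le
    · rw [if_neg h1, if_neg (by omega : ¬ i + 1 ≤ c)]
      by_cases h2 : v ∈ C.S i
      · rw [if_pos h2, if_pos (C.mono (Nat.le_succ i) h2)]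
        exact C.mono (Nat.le_succ i)
      · rw [if_neg h2]
        by_cases h3 : v ∈ C.S (i + 1)
        · rw [if_pos h3]
          exact sup_le (C.mono (by omega)) ((Submodule.span_singleton_le_iff_mem v _).2 h3)
        · rw [if_neg h3]
          exact sup_le_sup_right (C.mono (by omega)) _
  bot i h := if_pos (by omega)
  rank i h := by
    rw [if_neg (by omega : ¬ i ≤ c)]
    by_cases h2 : v ∈ C.S i
    · rw [if_pos h2]
      exact C.rank i (by omega)
    · rw [if_neg h2]
      have h3 : v ∉ C.S (i - 1) := fun h3 => h2 (C.mono (by omega) h3)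
      have h4 : i < finrank F V := by
        by_contra h4
        apply h2
        rw [C.eq_top (by omega) (by omega)]
        trivial
      rw [finrank_sup h3, C.rank _ (by omega), min_eq_left (by omega), min_eq_left (by omega)]
      omega

open Classical in
theorem up_S (C : Chain F V c) {i : ℕ} (hi : c < i) (hv : v ∉ C.S i) : (C.up v).S i = C.S (i - 1) ⊔ F ∙ v := by
  change (if i ≤ c then ⊥ else if v ∈ C.S i then C.S i else C.S (i - 1) ⊔ F ∙ v) = _
  rw [if_neg (by omega), if_neg hv]

open Classical in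
theorem up_S' (C : Chain F V c) {i : ℕ} (hi : c < i) (hv : v ∈ C.S i) : (C.up v).S i = C.S i := by
  change (if i ≤ c then ⊥ else if v ∈ C.S i then C.S i else C.S (i - 1) ⊔ F ∙ v) = _
  rw [if_neg (by omega), if_pos hv]

/-- `v` enters with the member of dimension `i` -/
theorem sup_eq (C : Chain F V c) {i : ℕ} (hi : c ≤ i) (h1 : v ∉ C.S i) (h2 : v ∈ C.S (i + 1)) :
    C.S i ⊔ F ∙ v = C.S (i + 1) := by
  have h4 : i < finrank F V := by
    by_contra h4
    apply h1
    rw [C.eq_top (by omega) (by omega)]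
    trivial
  refine Submodule.eq_of_le_of_finrank_eq (sup_le (C.mono (Nat.le_succ i))
    ((Submodule.span_singleton_le_iff_mem v _).2 h2)) ?_
  rw [finrank_sup h1, C.rank _ hi, C.rank _ (by omega), min_eq_left (by omega), min_eq_left (by omega)]

theorem up_S'' (C : Chain F V c) {i : ℕ} (hi : c ≤ i) (h1 : v ∉ C.S i) : (C.up v).S (i + 1) = C.S i ⊔ F ∙ v := by
  by_cases h2 : v ∈ C.S (i + 1)
  · rw [C.up_S' (by omega) h2, C.sup_eq hi h1 h2]
  · rw [C.up_S (by omega) h2, Nat.add_sub_cancel]

/-- chains with `v` entering with the member of dimension `j` -/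
def E (F : Type*) {V : Type*} [Field F] [AddCommGroup V] [Module F V] (v : V) (c j : ℕ) : Set (Chain F V c) :=
  {C | v ∉ C.S (j - 1) ∧ v ∈ C.S j}

/-- chains whose smallest member contains `v` -/
def B (F : Type*) {V : Type*} [Field F] [AddCommGroup V] [Module F V] (v : V) (c : ℕ) : Set (Chain F V c) :=
  {C | v ∈ C.S c}

theorem up_mem_B (C : Chain F V c) : C.up v ∈ B F v (c + 1) := by
  change v ∈ (C.up v).S (c + 1)
  by_cases h : v ∈ C.S c
  · rw [C.up_S' (by omega) (C.mono (Nat.le_succ c) h)]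
    exact C.mono (Nat.le_succ c) h
  · rw [C.up_S'' le_rfl h]
    exact Submodule.mem_sup_right (Submodule.mem_span_singleton_self v)

open Classical in
/-- a chain with given image -/
noncomputable def down (D : Chain F V (c + 1)) (hD : D ∈ B F v (c + 1)) {j : ℕ} (hj : c < j) (hjn : j ≤ finrank F V)
    (X : Submodule F V) (hX : X ⊔ F ∙ v = D.S j) (hvX : v ∉ X) : Chain F V c where
  S i := if i < c then ⊥ else if i < j then X ⊓ D.S (i + 1) else D.S i
  mono := by
    have hXj : X ≤ D.S j := by rw [← hX]; exact le_sup_left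
    refine monotone_nat_of_le_succ fun i => ?_
    by_cases h1 : i < c
    · rw [if_pos h1]
      exact bot_le
    · rw [if_neg h1, if_neg (by omega : ¬ i + 1 < c)]
      by_cases h2 : i < j
      · rw [if_pos h2]
        by_cases h3 : i + 1 < j
        · rw [if_pos h3]
          exact inf_le_inf_left _ (D.mono (by omega))
        · rw [if_neg h3]
          exact inf_le_right
      · rw [if_neg h2, if_neg (by omega : ¬ i + 1 < j)]
        exact D.mono (by omega)
  bot i h := if_pos h
  rank i h := by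
    rw [if_neg (by omega : ¬ i < c)]
    by_cases h2 : i < j
    · rw [if_pos h2]
      have hvD : v ∈ D.S (i + 1) := D.mono (by omega) hD
      have h3 : (X ⊓ D.S (i + 1)) ⊔ F ∙ v = D.S (i + 1) := inf_sup_eq hvD (by rw [hX]; exact D.mono (by omega))
      have h4 : v ∉ X ⊓ D.S (i + 1) := fun h => hvX h.1
      have h5 := finrank_sup h4
      rw [h3, D.rank _ (by omega), min_eq_left (by omega)] at h5
      rw [min_eq_left (by omega)]
      omega
    · rw [if_neg h2]
      exact D.rank i (by omega)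

theorem down_S (D : Chain F V (c + 1)) (hD : D ∈ B F v (c + 1)) {j : ℕ} (hj : c < j) (hjn : j ≤ finrank F V)
    (X : Submodule F V) (hX : X ⊔ F ∙ v = D.S j) (hvX : v ∉ X) {i : ℕ} (hi : c ≤ i) (hij : i < j) :
    (down D hD hj hjn X hX hvX).S i = X ⊓ D.S (i + 1) := by
  change (if i < c then ⊥ else if i < j then X ⊓ D.S (i + 1) else D.S i) = _
  rw [if_neg (by omega), if_pos hij]

theorem down_S' (D : Chain F V (c + 1)) (hD : D ∈ B F v (c + 1)) {j : ℕ} (hj : c < j) (hjn : j ≤ finrank F V)
    (X : Submodule F V) (hX : X ⊔ F ∙ v = D.S j) (hvX : v ∉ X) {i : ℕ} (hi : j ≤ i) :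
    (down D hD hj hjn X hX hvX).S i = D.S i := by
  change (if i < c then ⊥ else if i < j then X ⊓ D.S (i + 1) else D.S i) = _
  rw [if_neg (by omega), if_neg (by omega)]

theorem down_mem (D : Chain F V (c + 1)) (hD : D ∈ B F v (c + 1)) {j : ℕ} (hj : c < j) (hjn : j ≤ finrank F V)
    (X : Submodule F V) (hX : X ⊔ F ∙ v = D.S j) (hvX : v ∉ X) : down D hD hj hjn X hX hvX ∈ E F v c j := by
  constructor
  · rw [down_S D hD hj hjn X hX hvX (by omega) (by omega)]
    exact fun h => hvX h.1
  · rw [down_S' D hD hj hjn X hX hvX le_rfl]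
    exact D.mono (by omega) hD

theorem up_down (D : Chain F V (c + 1)) (hD : D ∈ B F v (c + 1)) {j : ℕ} (hj : c < j) (hjn : j ≤ finrank F V)
    (X : Submodule F V) (hX : X ⊔ F ∙ v = D.S j) (hvX : v ∉ X) : (down D hD hj hjn X hX hvX).up v = D := by
  refine Chain.ext (funext fun i => ?_)
  by_cases h1 : i ≤ c
  · rw [((down D hD hj hjn X hX hvX).up v).bot i (by omega), D.bot i (by omega)]
  by_cases h2 : i < j
  · obtain ⟨k, rfl⟩ : ∃ k, i = k + 1 := ⟨i - 1, by omega⟩
    have h3 : v ∉ (down D hD hj hjn X hX hvX).S k := by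
      rw [down_S D hD hj hjn X hX hvX (by omega) (by omega)]
      exact fun h => hvX h.1
    rw [up_S'' _ (by omega) h3, down_S D hD hj hjn X hX hvX (by omega) (by omega)]
    exact inf_sup_eq (D.mono (by omega) hD) (by rw [hX]; exact D.mono (by omega))
  · have h3 : v ∈ (down D hD hj hjn X hX hvX).S i := by
      rw [down_S' D hD hj hjn X hX hvX (by omega)]
      exact D.mono (by omega) hD
    rw [up_S' _ (by omega) h3, down_S' D hD hj hjn X hX hvX (by omega)]

/-- forget the smallest member -/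
def drop (C : Chain F V c) : Chain F V (c + 1) where
  S i := if i ≤ c then ⊥ else C.S i
  mono := by
    refine monotone_nat_of_le_succ fun i => ?_
    by_cases h1 : i ≤ c
    · rw [if_pos h1]
      exact bot_le
    · rw [if_neg h1, if_neg (by omega : ¬ i + 1 ≤ c)]
      exact C.mono (Nat.le_succ i)
  bot i h := if_pos (by omega)
  rank i h := by
    rw [if_neg (by omega : ¬ i ≤ c)]
    exact C.rank i (by omega)

omit [FiniteDimensional F V] in
theorem drop_S (C : Chain F V c) {i : ℕ} (hi : c < i) : C.drop.S i = C.S i := by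
  change (if i ≤ c then ⊥ else C.S i) = _
  rw [if_neg (by omega)]

omit [FiniteDimensional F V] in
theorem drop_map (e : V ≃ₗ[F] V) (C : Chain F V c) : (C.map e).drop = C.drop.map e := by
  refine Chain.ext (funext fun i => ?_)
  by_cases h1 : i ≤ c
  · rw [(C.map e).drop.bot i (by omega), map_S, C.drop.bot i (by omega), Submodule.map_bot]
  · rw [drop_S _ (by omega), map_S, map_S, drop_S _ (by omega)]

/-- every chain can be extended -/
theorem exists_drop (hc : c < finrank F V) (D : Chain F V (c + 1)) : ∃ C : Chain F V c, C.drop = D := by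
  have h1 : D.S (c + 1) ≠ ⊥ := by
    intro h
    have h2 := D.rank (c + 1) le_rfl
    rw [h, finrank_bot, min_eq_left (by omega)] at h2
    omega
  obtain ⟨w, hw, hw0⟩ := Submodule.exists_mem_ne_zero_of_ne_bot h1
  obtain ⟨X, hX, hwX⟩ := exists_compl hw hw0
  refine ⟨down D hw (Nat.lt_succ_self c) (by omega) X hX hwX, Chain.ext (funext fun i => ?_)⟩
  by_cases h1 : i ≤ c
  · rw [Chain.bot _ i (by omega), D.bot i (by omega)]
  · rw [drop_S _ (by omega), down_S' D hw (Nat.lt_succ_self c) (by omega) X hX hwX (by omega)]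

end Chain

/-! ### The numbers of orbits -/

section count

variable {F V : Type*} [Field F] [AddCommGroup V] [Module F V] [FiniteDimensional F V] {v : V}
  {H : Type*} [Group H] [∀ c, MulAction H (Chain F V c)]

/-- the situation -/
structure Sit (H : Type*) [Group H] {F V : Type*} [Field F] [AddCommGroup V] [Module F V]
    [∀ c, MulAction H (Chain F V c)] (ρ : H →* (V ≃ₗ[F] V)) (v : V) : Prop where
  act : ∀ (c : ℕ) (h : H) (C : Chain F V c), h • C = C.map (ρ h)
  ne : v ≠ 0
  line : ∀ h : H, ρ h v ∈ F ∙ v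
  trans : ∀ φ : V →ₗ[F] F, φ v = 0 → ∃ h : H, ∀ x, ρ h x = x + φ x • v

variable {ρ : H →* (V ≃ₗ[F] V)} (A : Sit H ρ v)

include A

omit [FiniteDimensional F V] in
theorem Sit.map_line (h : H) : (F ∙ v).map (ρ h : V →ₗ[F] V) = F ∙ v := by
  rw [Submodule.map_span, Set.image_singleton]
  apply le_antisymm
  · exact (Submodule.span_singleton_le_iff_mem _ _).2 (A.line h)
  · rw [Submodule.span_singleton_le_iff_mem]
    obtain ⟨a, ha⟩ := Submodule.mem_span_singleton.1 (A.line h)
    have ha0 : a ≠ 0 := by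
      rintro rfl
      rw [zero_smul] at ha
      exact A.ne ((ρ h).map_eq_zero_iff.1 ha.symm)
    refine Submodule.mem_span_singleton.2 ⟨a⁻¹, ?_⟩
    change a⁻¹ • (ρ h) v = v
    rw [← ha, smul_smul, inv_mul_cancel₀ ha0, one_smul]

omit [FiniteDimensional F V] in
theorem Sit.mem_map (h : H) (X : Submodule F V) : v ∈ X.map (ρ h : V →ₗ[F] V) ↔ v ∈ X := by
  rw [← Submodule.span_singleton_le_iff_mem, ← Submodule.span_singleton_le_iff_mem]
  conv_lhs => rw [← A.map_line h]
  constructor
  · intro h1 x hx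
    obtain ⟨y, hy, hyx⟩ := h1 (Submodule.mem_map_of_mem hx)
    rwa [← (ρ h).injective hyx]
  · exact fun h1 => Submodule.map_mono h1

theorem Sit.up_smul {c : ℕ} (h : H) (C : Chain F V c) : (h • C).up v = h • C.up v := by
  rw [A.act, A.act]
  refine Chain.ext (funext fun i => ?_)
  by_cases h1 : i ≤ c
  · rw [Chain.bot _ i (by omega), Chain.map_S, Chain.bot _ i (by omega), Submodule.map_bot]
  by_cases h2 : v ∈ C.S i
  · rw [Chain.up_S' _ (by omega) (by rw [Chain.map_S, A.mem_map]; exact h2), Chain.map_S, Chain.map_S,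
      Chain.up_S' _ (by omega) h2]
  · rw [Chain.up_S _ (by omega) (by rw [Chain.map_S, A.mem_map]; exact h2), Chain.map_S, Chain.map_S,
      Chain.up_S _ (by omega) h2, Submodule.map_sup, A.map_line]

omit [FiniteDimensional F V] in
theorem Sit.smul_B {c : ℕ} {C : Chain F V c} (hC : C ∈ Chain.B F v c) (h : H) : h • C ∈ Chain.B F v c := by
  change v ∈ (h • C).S c
  rw [A.act, Chain.map_S, A.mem_map]
  exact hC

omit [FiniteDimensional F V] in
theorem Sit.smul_E {c j : ℕ} {C : Chain F V c} (hC : C ∈ Chain.E F v c j) (h : H) : h • C ∈ Chain.E F v c j := by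
  constructor
  · rw [A.act, Chain.map_S, A.mem_map]
    exact hC.1
  · rw [A.act, Chain.map_S, A.mem_map]
    exact hC.2

/-- chains with the same entry and the same image are conjugate -/
theorem Sit.fibre {c j : ℕ} (hj : c < j) {C C' : Chain F V c} (hC : C ∈ Chain.E F v c j)
    (hC' : C' ∈ Chain.E F v c j) (h : C.up v = C'.up v) : ∃ k : H, k • C = C' := by
  obtain ⟨i, rfl⟩ : ∃ i, j = i + 1 := ⟨j - 1, by omega⟩
  have e1 : v ∉ C.S i := hC.1
  have e2 : v ∉ C'.S i := hC'.1
  have e3 : v ∈ C.S (i + 1) := hC.2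
  have e4 : v ∈ C'.S (i + 1) := hC'.2
  have e5 : C.S i ⊔ F ∙ v = C'.S i ⊔ F ∙ v := by
    rw [← Chain.up_S'' C (by omega) e1, ← Chain.up_S'' C' (by omega) e2, h]
  obtain ⟨φ, hφ, hφX⟩ := exists_transvection e1 e2 e5
  obtain ⟨k, hk⟩ := A.trans φ hφ
  -- `k` fixes the subspaces containing `v`
  have hfix : ∀ X : Submodule F V, v ∈ X → X.map (ρ k : V →ₗ[F] V) = X := by
    intro X hX
    refine Submodule.eq_of_le_of_finrank_eq ?_ (LinearEquiv.finrank_eq ((ρ k).submoduleMap X)).symm
    rintro _ ⟨x, hx, rfl⟩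
    change ρ k x ∈ X
    rw [hk]
    exact X.add_mem hx (X.smul_mem _ hX)
  have hX : (C.S i).map (ρ k : V →ₗ[F] V) = C'.S i := by
    refine Submodule.eq_of_le_of_finrank_eq ?_ ?_
    · rintro _ ⟨x, hx, rfl⟩
      change ρ k x ∈ _
      rw [hk]
      exact hφX x hx
    · rw [C'.rank i (by omega), ← C.rank i (by omega)]
      exact (LinearEquiv.finrank_eq ((ρ k).submoduleMap (C.S i))).symm
  refine ⟨k, ?_⟩
  rw [A.act]
  refine Chain.ext (funext fun l => ?_)
  rw [Chain.map_S]
  by_cases h1 : l < c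
  · rw [C.bot l h1, C'.bot l h1, Submodule.map_bot]
  by_cases h2 : i + 1 ≤ l
  · have h3 : v ∈ C.S l := C.mono h2 e3
    have h4 : v ∈ C'.S l := C'.mono h2 e4
    rw [hfix _ h3, ← Chain.up_S' C (by omega) h3, ← Chain.up_S' C' (by omega) h4, h]
  · -- `l ≤ i`
    have key : ∀ D : Chain F V c, v ∉ D.S i → D.S l = D.S i ⊓ (D.up v).S (l + 1) := by
      intro D hD
      have h3 : v ∉ D.S l := fun h3 => hD (D.mono (by omega) h3)
      rw [Chain.up_S'' D (by omega) h3]
      have h4 : D.S l ≤ D.S i := D.mono (by omega)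
      rw [inf_comm, sup_inf_assoc_of_le _ h4, inf_comm, inf_span hD, sup_bot_eq]
    have h5 : v ∈ (C.up v).S (l + 1) := by
      have h3 : v ∉ C.S l := fun h3 => e1 (C.mono (by omega) h3)
      rw [Chain.up_S'' C (by omega) h3]
      exact Submodule.mem_sup_right (Submodule.mem_span_singleton_self v)
    rw [key C e1, key C' e2, ← h, Submodule.map_inf _ (ρ k).injective, hX, hfix _ h5]

theorem Sit.orbs_E {c j : ℕ} (hj : c < j) (hjn : j ≤ finrank F V) :
    orbs H (Chain.E F v c j) = orbs H (Chain.B F v (c + 1)) := by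
  refine orbs_congr (Chain.up v) (fun C _ => C.up_mem_B) (fun C _ h => A.up_smul h C) (fun C hC h => A.smul_E hC h) ?_
    (fun C hC C' hC' h => A.fibre hj hC hC' h)
  intro D hD
  have h1 : v ∈ D.S j := D.mono (by omega) hD
  obtain ⟨X, hX, hvX⟩ := exists_compl h1 A.ne
  exact ⟨_, Chain.down_mem D hD hj hjn X hX hvX, Chain.up_down D hD hj hjn X hX hvX⟩

/-- the orbits on the chains whose smallest member does not contain `v` -/
theorem Sit.orbs_step [Finite V] {c : ℕ} (k : ℕ) (hk : c + k ≤ finrank F V) :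
    orbs H {C : Chain F V c | v ∉ C.S c ∧ v ∈ C.S (c + k)} = k * orbs H (Chain.B F v (c + 1)) := by
  have hfin : Finite (Chain F V c) := Chain.finite_chain
  induction k with
  | zero =>
    have h1 : {C : Chain F V c | v ∉ C.S c ∧ v ∈ C.S (c + 0)} = ∅ := by
      ext C
      simp
    rw [h1, orbs_empty, zero_mul]
  | succ k ih =>
    have h1 : {C : Chain F V c | v ∉ C.S c ∧ v ∈ C.S (c + (k + 1))} =
        {C : Chain F V c | v ∉ C.S c ∧ v ∈ C.S (c + k)} ∪ Chain.E F v c (c + (k + 1)) := by
      ext C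
      constructor
      · rintro ⟨h1, h2⟩
        by_cases h3 : v ∈ C.S (c + k)
        · exact Or.inl ⟨h1, h3⟩
        · exact Or.inr ⟨h3, h2⟩
      · rintro (⟨h1, h2⟩ | ⟨h1, h2⟩)
        · exact ⟨h1, C.mono (by omega) h2⟩
        · exact ⟨fun h3 => h1 (C.mono (by omega) h3), h2⟩
    rw [h1, orbs_union, ih (by omega), A.orbs_E (by omega) hk]
    · ring
    · rintro C ⟨-, h2⟩ h ⟨h3, -⟩
      apply h3
      rw [A.act, Chain.map_S, A.mem_map]
      exact h2

/-- **the number of orbits on the chains** -/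
theorem Sit.card_orbits [Finite V] {c : ℕ} (hc : c ≤ finrank F V) :
    Nat.card (MulAction.orbitRel.Quotient H (Chain F V c)) =
      orbs H (Chain.B F v c) + (finrank F V - c) * orbs H (Chain.B F v (c + 1)) := by
  have hfin : Finite (Chain F V c) := Chain.finite_chain
  rw [← A.orbs_step (finrank F V - c) (by omega), ← orbs_univ, ← orbs_union]
  · congr 1
    ext C
    constructor
    · intro _
      by_cases h3 : v ∈ C.S c
      · exact Or.inl h3
      · refine Or.inr ⟨h3, ?_⟩
        rw [C.eq_top (by omega) (by omega)]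
        trivial
    · intro _
      trivial
  · rintro C hC h ⟨h3, -⟩
    exact h3 (A.smul_B hC h)

theorem Sit.orbs_one (hn : 2 ≤ finrank F V) : orbs H (Chain.B F v 1) = orbs H (Chain.B F v 2) := by
  refine orbs_congr (Chain.up v) (fun C _ => C.up_mem_B) (fun C _ h => A.up_smul h C) (fun C hC h => A.smul_B hC h) ?_ ?_
  · intro D hD
    refine ⟨⟨fun i => if i < 1 then ⊥ else if i < 2 then F ∙ v else D.S i, ?_, fun i hi => if_pos hi, ?_⟩, ?_, ?_⟩
    · refine monotone_nat_of_le_succ fun i => ?_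
      by_cases h1 : i < 1
      · rw [if_pos h1]
        exact bot_le
      · rw [if_neg h1, if_neg (by omega : ¬ i + 1 < 1), if_neg (by omega : ¬ i + 1 < 2)]
        by_cases h2 : i < 2
        · rw [if_pos h2, Submodule.span_singleton_le_iff_mem]
          exact D.mono (by omega) hD
        · rw [if_neg h2]
          exact D.mono (by omega)
    · intro i hi
      rw [if_neg (by omega : ¬ i < 1)]
      by_cases h2 : i < 2
      · rw [if_pos h2, finrank_span_singleton A.ne]
        omega
      · rw [if_neg h2]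
        exact D.rank i (by omega)
    · change v ∈ (if 1 < 1 then ⊥ else if 1 < 2 then F ∙ v else D.S 1)
      rw [if_neg (by omega), if_pos (by omega)]
      exact Submodule.mem_span_singleton_self v
    · refine Chain.ext (funext fun i => ?_)
      by_cases h1 : i ≤ 1
      · rw [Chain.bot _ i (by omega), D.bot i (by omega)]
      · have h3 : (if i < 1 then ⊥ else if i < 2 then F ∙ v else D.S i) = D.S i := by
          rw [if_neg (by omega), if_neg (by omega)]
        rw [Chain.up_S' _ (by omega)]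
        · exact h3
        · change v ∈ (if i < 1 then ⊥ else if i < 2 then F ∙ v else D.S i)
          rw [h3]
          exact D.mono (by omega) hD
  · intro C hC C' hC' h
    refine ⟨1, ?_⟩
    rw [one_smul]
    refine Chain.ext (funext fun i => ?_)
    have key : ∀ D : Chain F V 1, D ∈ Chain.B F v 1 → D.S 1 = F ∙ v := by
      intro D hD
      symm
      refine Submodule.eq_of_le_of_finrank_eq ((Submodule.span_singleton_le_iff_mem _ _).2 hD) ?_
      rw [finrank_span_singleton A.ne, D.rank 1 le_rfl, min_eq_left (by omega)]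
    by_cases h1 : i < 1
    · rw [C.bot i h1, C'.bot i h1]
    by_cases h2 : i = 1
    · rw [h2, key C hC, key C' hC']
    · have e1 : v ∈ C.S i := C.mono (by omega) hC
      have e2 : v ∈ C'.S i := C'.mono (by omega) hC'
      rw [← Chain.up_S' C (by omega) e1, ← Chain.up_S' C' (by omega) e2, h]

/-- **the parity argument** -/
theorem Sit.not_all_odd [Finite V] (hn : 3 ≤ finrank F V) (hodd : Odd (finrank F V))
    (h1 : Odd (Nat.card (MulAction.orbitRel.Quotient H (Chain F V 1))))
    (h2 : Odd (Nat.card (MulAction.orbitRel.Quotient H (Chain F V 2))))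
    (h3 : Odd (Nat.card (MulAction.orbitRel.Quotient H (Chain F V 3)))) : False := by
  rw [A.card_orbits (by omega)] at h1 h2 h3
  rw [A.orbs_one (by omega)] at h1
  obtain ⟨k, hk⟩ := hodd
  have e1 : finrank F V - 1 = 2 * k := by omega
  have e2 : finrank F V - 2 = 2 * (k - 1) + 1 := by omega
  have e3 : finrank F V - 3 = 2 * (k - 1) := by omega
  rw [e1] at h1
  rw [e2] at h2
  rw [e3] at h3
  rw [← Nat.not_even_iff_odd] at h1 h2 h3
  simp only [Nat.even_add, Nat.even_mul, even_two, true_or, Nat.not_even_one, iff_true, iff_false,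
    not_true, false_or] at h1 h2 h3
  tauto

end count

end Cfsg.Agent.H131.OddChain
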