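import Cfsg.Agent.H131.OddP1D
import Cfsg.Agent.H660.OddM.RealLin
import Cfsg.Agent.H304.PslTransfer
import Cfsg.Agent.Lib.Zsigmondy

/-!
# Reducible subgroups of `PSL_n(q)`, `n` and `q` odd (helper131, S4785, part C4)

`par_psl` : `n ≥ 5` and `q` odd, `R ≤ PSL_n(q)` with `RO _ R` stabilizes no point and no hyperplane.
-/

set_option autoImplicit false
set_option linter.unusedSectionVars false

namespace Cfsg.Agent.H131.OddP1

open Module Matrix Cfsg Cfsg.Geo Cfsg.Agent.H453.OddM Cfsg.Agent.H131.OddChain Cfsg.Agent.H304.PslT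

section

variable {F : Type*} [Field F] {n : ℕ}

/-! ### Transpose inverse -/

theorem tr_mul (A B : SpecialLinearGroup (Fin n) F) : (A * B).transpose = B.transpose * A.transpose :=
  Subtype.ext (transpose_mul A.1 B.1)

theorem tr_one : (1 : SpecialLinearGroup (Fin n) F).transpose = 1 := Subtype.ext transpose_one

theorem tr_tr (A : SpecialLinearGroup (Fin n) F) : A.transpose.transpose = A := Subtype.ext (transpose_transpose A.1)

theorem tr_inv (A : SpecialLinearGroup (Fin n) F) : (A.transpose)⁻¹ = (A⁻¹).transpose := by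
  rw [inv_eq_iff_mul_eq_one, ← tr_mul, inv_mul_cancel, tr_one]

/-- transpose inverse -/
def ti (n : ℕ) (F : Type*) [Field F] : SpecialLinearGroup (Fin n) F ≃* SpecialLinearGroup (Fin n) F where
  toFun A := (A⁻¹).transpose
  invFun A := (A⁻¹).transpose
  left_inv A := by
    change (((A⁻¹).transpose)⁻¹).transpose = A
    rw [tr_inv, tr_tr, inv_inv]
  right_inv A := by
    change (((A⁻¹).transpose)⁻¹).transpose = A
    rw [tr_inv, tr_tr, inv_inv]
  map_mul' A B := by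
    rw [_root_.mul_inv_rev, tr_mul]

theorem ti_apply (A : SpecialLinearGroup (Fin n) F) : ti n F A = (A⁻¹).transpose := rfl

variable [Fintype F]

/-- **stabilizers of lines in `SL_n(q)`** -/
theorem sl_line (hn : Odd n) (hn5 : 5 ≤ n) (hq : ¬ 2 ∣ Fintype.card F) {H : Subgroup (SpecialLinearGroup (Fin n) F)}
    (hH : RO _ H) {v : Fin n → F} (hv : v ≠ 0) (hHv : H ≤ lineStab v) : False := by
  obtain ⟨f, hp, hf⟩ := FiniteField.card F (ringChar F)
  generalize ringChar F = p at hp hf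
  have hcard : Nat.card F = p ^ (f : ℕ) := by rw [Nat.card_eq_fintype_card, hf]
  have hf1 : 1 ≤ (f : ℕ) := f.2
  have hp2 : p ≠ 2 := by
    rintro rfl
    rw [hf] at hq
    exact hq (dvd_pow_self 2 (by omega))
  have h2 : (2 : F) ≠ 0 := by
    intro h0
    have h1 : (ringChar F) ∣ 2 := ringChar.dvd (by exact_mod_cast h0)
    obtain ⟨g, hp', hg⟩ := FiniteField.card F (ringChar F)
    have h3 : ringChar F = 2 := (Nat.prime_dvd_prime_iff_eq hp' Nat.prime_two).1 h1
    rw [h3] at hg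
    rw [hg] at hq
    exact hq (dvd_pow_self 2 g.ne_zero)
  obtain ⟨k, hk⟩ := hn
  have hNf : (f : ℕ) * (n - 1) = (f : ℕ) * (2 * k) := by rw [hk, Nat.add_sub_cancel]
  obtain ⟨N, hN⟩ : ∃ N, N = (f : ℕ) * (n - 1) := ⟨_, rfl⟩
  have hN4 : 4 ≤ N := by
    rw [hN]
    calc 4 = 1 * 4 := rfl
      _ ≤ (f : ℕ) * (n - 1) := Nat.mul_le_mul hf1 (by omega)
  have hNf' : (f : ℕ) < N := by
    rw [hN]
    calc (f : ℕ) = (f : ℕ) * 1 := (mul_one _).symm
      _ < (f : ℕ) * (n - 1) := Nat.mul_lt_mul_of_pos_left (by omega) (by omega)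
  obtain ⟨r, hr, hrd, -, hrp⟩ := Lib.Zsigmondy.exists_primitive (a := p) (n := N) hp.two_le (by omega)
    (fun h => by omega) (fun h => hp2 h.1)
  have hrp' : r ≠ p := fun h => hrp (h ▸ dvd_rfl)
  have hrq : Nat.Coprime r (Nat.card F - 1) := by
    rw [hr.coprime_iff_not_dvd, hcard, hrd]
    intro h
    exact absurd (Nat.le_of_dvd (by omega) h) (by omega)
  have hr2 : r ≠ 2 := by
    rintro rfl
    have h1 : 2 ∣ Nat.card F - 1 := by
      rw [Nat.card_eq_fintype_card]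
      omega
    rw [Nat.Coprime, Nat.gcd_eq_left h1] at hrq
    exact absurd hrq (by norm_num)
  have hreal : RealP (SpecialLinearGroup (Fin n) F) r := by
    refine realP_sl h2 (k := k) (by omega) (by omega) (hr.odd_of_ne_two hr2) ?_
    have h1 : r ∣ p ^ ((f : ℕ) * (n - 1)) - 1 := (hrd _).2 (by rw [hN])
    have h3 : p ^ ((f : ℕ) * (n - 1)) - 1 = (Fintype.card F ^ k + 1) * (Fintype.card F ^ k - 1) := by
      rw [hNf, pow_mul, ← hf, mul_comm 2 k, pow_mul]
      have := Nat.sq_sub_sq (Fintype.card F ^ k) 1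
      rwa [one_pow] at this
    rw [h3] at h1
    rcases (Nat.Prime.dvd_mul hr).1 h1 with h4 | h4
    · exact Or.inr h4
    · exact Or.inl h4
  refine sl_false h2 ⟨k, hk⟩ (by omega) hp hr hrp' (N := N) ?_ hrq ?_ hreal hH hv hHv
  · rw [hcard, ← pow_mul, hN]
  · intro i hi hiN h
    rw [hrd] at h
    exact absurd (Nat.le_of_dvd hi h) (by omega)

theorem line_of_stab {H : Subgroup (SpecialLinearGroup (Fin n) F)} {W : Submodule F (Fin n → F)}
    (hW : finrank F W = 1) (h : ∀ A ∈ H, ∀ x ∈ W, ac A x ∈ W) : ∃ v : Fin n → F, v ≠ 0 ∧ H ≤ lineStab v := by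
  obtain ⟨⟨v, hvW⟩, hv, hall⟩ := finrank_eq_one_iff'.1 hW
  have hv0 : v ≠ 0 := fun h => hv (Subtype.ext h)
  refine ⟨v, hv0, fun A hA => ?_⟩
  obtain ⟨c, hc⟩ := hall ⟨_, h A hA v hvW⟩
  have hc' : c • v = ac A v := congrArg Subtype.val hc
  refine ⟨c, ?_, hc'.symm⟩
  rintro rfl
  rw [zero_smul] at hc'
  apply hv0
  rw [← ac_inv A v, ← hc']
  exact mulVec_zero _

theorem line_of_hyp {H : Subgroup (SpecialLinearGroup (Fin n) F)} {W : Submodule F (Fin n → F)} (hn : 0 < n)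
    (hW : finrank F W = n - 1) (h : ∀ A ∈ H, ∀ x ∈ W, ac A x ∈ W) :
    ∃ v : Fin n → F, v ≠ 0 ∧ H.comap (ti n F).toMonoidHom ≤ lineStab v := by
  have hlt : W < ⊤ := by
    rw [lt_top_iff_ne_top]
    rintro rfl
    rw [finrank_top, finrank_V] at hW
    omega
  obtain ⟨f, hf, hWf⟩ := Submodule.exists_le_ker_of_lt_top W hlt
  have hker : W = LinearMap.ker f := by
    refine Submodule.eq_of_le_of_finrank_eq hWf ?_
    have h3 := LinearMap.finrank_range_add_finrank_ker f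
    rw [LinearMap.range_eq_top.2 (LinearMap.surjective hf), finrank_top, finrank_self, finrank_V] at h3
    omega
  let ψ : Fin n → F := fun i => f (Pi.single i 1)
  have hψ : ∀ y, ψ ⬝ᵥ y = f y := by
    intro y
    rw [dotProduct]
    have h2 : f y = f (∑ i, y i • Pi.single i (1 : F)) := by
      congr 1
      funext j
      simp [Finset.sum_apply, Pi.single_apply]
    rw [h2, map_sum]
    refine Finset.sum_congr rfl fun i _ => ?_
    rw [map_smul, smul_eq_mul, mul_comm]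
  have hψ0 : ψ ≠ 0 := by
    intro h0
    apply hf
    refine LinearMap.ext fun y => ?_
    rw [← hψ, h0, zero_dotProduct]
    rfl
  obtain ⟨x0, hx0⟩ := LinearMap.surjective hf 1
  refine ⟨ψ, hψ0, fun A hA => ?_⟩
  -- `B = (A⁻¹)ᵀ` stabilizes `ker ψ`
  have hB : (A⁻¹).transpose ∈ H := hA
  have h1 : ∀ x, ψ ⬝ᵥ ac (A⁻¹).transpose x = (ψ ⬝ᵥ ac (A⁻¹).transpose x0) * (ψ ⬝ᵥ x) := by
    intro x
    have h2 : x - (ψ ⬝ᵥ x) • x0 ∈ W := by
      rw [hker, LinearMap.mem_ker, map_sub, map_smul, hx0, ← hψ, smul_eq_mul, mul_one, sub_self]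
    have h3 := h _ hB _ h2
    rw [hker, LinearMap.mem_ker, ← hψ] at h3
    have h4 : ac (A⁻¹).transpose (x - (ψ ⬝ᵥ x) • x0) = ac (A⁻¹).transpose x - (ψ ⬝ᵥ x) • ac (A⁻¹).transpose x0 := by
      rw [ac_def, ac_def, ac_def, mulVec_sub, mulVec_smul]
    rw [h4, dotProduct_sub, dotProduct_smul, sub_eq_zero, smul_eq_mul] at h3
    rw [h3, mul_comm]
  have h2 : ac A⁻¹ ψ = (ψ ⬝ᵥ ac (A⁻¹).transpose x0) • ψ := by
    funext j
    have h3 := h1 (Pi.single j 1)
    rw [dotProduct_single, mul_one] at h3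
    rw [Pi.smul_apply, smul_eq_mul, ← h3]
    have h4 : ψ ⬝ᵥ ac (A⁻¹).transpose (Pi.single j 1) = (ψ ᵥ* ((A⁻¹).1)ᵀ) ⬝ᵥ Pi.single j 1 :=
      dotProduct_mulVec ψ ((A⁻¹).1)ᵀ (Pi.single j 1)
    rw [h4, vecMul_transpose, dotProduct_single, mul_one]
    rfl
  have h3 : A⁻¹ ∈ lineStab ψ := by
    refine ⟨_, ?_, h2⟩
    intro h0
    rw [h0, zero_smul] at h2
    apply hψ0
    rw [← ac_inv' A ψ, h2]
    exact mulVec_zero _
  exact inv_mem_iff.1 h3

/-- **the reducible case** -/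
theorem par_psl (hn : Odd n) (hn5 : 5 ≤ n) (hq : ¬ 2 ∣ Fintype.card F)
    {R : Subgroup (ProjectiveSpecialLinearGroup (Fin n) F)} (hR : RO _ R) {W : Submodule F (Fin n → F)}
    (hW : finrank F W = 1 ∨ finrank F W = n - 1) (h : pre R ≤ subspaceStabilizer W) : False := by
  have hH : RO _ (R.comap (pr n F)) := ro_comap (pr n F) (QuotientGroup.mk'_surjective _) hR
  have hst : ∀ A ∈ R.comap (pr n F), ∀ x ∈ W, ac A x ∈ W := by
    intro A hA x hx
    have h1 : Matrix.SpecialLinearGroup.toGL A ∈ subspaceStabilizer W := h ⟨A, hA, rfl⟩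
    exact (h1 x).1 hx
  rcases hW with hW | hW
  · obtain ⟨v, hv, hHv⟩ := line_of_stab hW hst
    exact sl_line hn hn5 hq hH hv hHv
  · obtain ⟨v, hv, hHv⟩ := line_of_hyp (by omega) hW hst
    exact sl_line hn hn5 hq (hH.comap (ti n F)) hv hHv

end

end Cfsg.Agent.H131.OddP1
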