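import Cfsg.Agent.H131.OddChain
import Cfsg.Agent.H453.OddM.Tools

/-!
# Tools for the stabilizer of a line in `SL_n(q)`, `n` odd (helper131, S4785, part C4)

`RO` passes to preimages and to transitive sets; `SL_n(q)` is transitive on the chains of subspaces.
-/

set_option autoImplicit false

namespace Cfsg.Agent.H131.OddP1

open Module Matrix Cfsg.Agent.H453.OddM Cfsg.Agent.H131.OddChain

/-! ### Transfer of `RO` -/

section transfer

variable {T S : Type*} [Group T] [Group S]

/-- `RO` passes to preimages -/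
theorem ro_comap {K : Subgroup S} (f : T →* S) (hf : Function.Surjective f) (h : RO S K) : RO T (K.comap f) := by
  let g : T ⧸ K.comap f → S ⧸ K :=
    Quotient.map' f (fun a b hab => by
      rw [QuotientGroup.leftRel_apply] at hab ⊢
      rw [← map_inv, ← map_mul]
      exact hab)
  have hg : Function.Bijective g := by
    constructor
    · intro a b hab
      obtain ⟨a, rfl⟩ := QuotientGroup.mk_surjective a
      obtain ⟨b, rfl⟩ := QuotientGroup.mk_surjective b
      have h2 : (QuotientGroup.mk (f a) : S ⧸ K) = QuotientGroup.mk (f b) := hab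
      rw [QuotientGroup.eq] at h2 ⊢
      rw [← map_inv, ← map_mul] at h2
      exact h2
    · intro c
      obtain ⟨s, rfl⟩ := QuotientGroup.mk_surjective c
      obtain ⟨t, rfl⟩ := hf s
      exact ⟨QuotientGroup.mk t, rfl⟩
  have hgs : ∀ (t : T) (ω : T ⧸ K.comap f), g (t • ω) = f t • g ω := by
    intro t ω
    obtain ⟨a, rfl⟩ := QuotientGroup.mk_surjective ω
    change (QuotientGroup.mk (f (t * a)) : S ⧸ K) = QuotientGroup.mk (f t * f a)
    rw [map_mul]
  let e := Equiv.ofBijective g hg
  refine ⟨?_, ?_, ?_⟩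
  · have h1 : (K.comap f).index = K.index := Nat.card_congr e
    rw [h1]; exact h.odd_index
  · intro x hx
    have h1 : Nat.card {ω : T ⧸ K.comap f // x • ω = ω} = Nat.card {ω : S ⧸ K // f x • ω = ω} := by
      refine Nat.card_congr (e.subtypeEquiv fun ω => ?_)
      change _ ↔ f x • g ω = g ω
      rw [← hgs]
      exact ⟨fun h => by rw [h], fun h => hg.1 h⟩
    rw [h1]
    exact h.odd_fix (f x) (hx.map f)
  · intro L
    have h1 : Nat.card (MulAction.orbitRel.Quotient L (T ⧸ K.comap f)) =
        Nat.card (MulAction.orbitRel.Quotient (L.map f) (S ⧸ K)) := by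
      refine Nat.card_congr (Quotient.congr e fun a b => ?_)
      change (MulAction.orbitRel L _) a b ↔ (MulAction.orbitRel (L.map f) _) (g a) (g b)
      rw [MulAction.orbitRel_apply, MulAction.orbitRel_apply]
      constructor
      · rintro ⟨⟨l, hl⟩, rfl⟩
        exact ⟨⟨f l, ⟨l, hl, rfl⟩⟩, (hgs l b).symm⟩
      · rintro ⟨⟨_, ⟨l, hl, rfl⟩⟩, hb⟩
        refine ⟨⟨l, hl⟩, hg.1 ?_⟩
        rw [← hb]
        exact hgs l b
    rw [h1]
    exact h.odd_orb _

/-- the number of orbits on a transitive set is odd -/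
theorem ro_orb_set {R : Subgroup T} (h : RO T R) {Ω : Type*} [MulAction T Ω] (ω0 : Ω)
    (ht : ∀ ω : Ω, ∃ t : T, t • ω0 = ω) : Odd (Nat.card (MulAction.orbitRel.Quotient R Ω)) := by
  have h1 := h.orb (MulAction.stabilizer T ω0)
  have hb : Function.Bijective (MulAction.ofQuotientStabilizer T ω0) := by
    refine ⟨MulAction.injective_ofQuotientStabilizer T ω0, fun ω => ?_⟩
    obtain ⟨t, rfl⟩ := ht ω
    exact ⟨QuotientGroup.mk t, rfl⟩
  have h2 : Nat.card (MulAction.orbitRel.Quotient R (T ⧸ MulAction.stabilizer T ω0)) =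
      Nat.card (MulAction.orbitRel.Quotient R Ω) := by
    refine Nat.card_congr (Quotient.congr (Equiv.ofBijective _ hb) fun a b => ?_)
    change (MulAction.orbitRel R _) a b ↔
      (MulAction.orbitRel R _) (MulAction.ofQuotientStabilizer T ω0 a) (MulAction.ofQuotientStabilizer T ω0 b)
    rw [MulAction.orbitRel_apply, MulAction.orbitRel_apply]
    constructor
    · rintro ⟨r, rfl⟩
      exact ⟨r, (MulAction.ofQuotientStabilizer_smul T ω0 (r : T) b).symm⟩
    · rintro ⟨r, hr⟩
      refine ⟨r, hb.1 ?_⟩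
      rw [← hr]
      exact MulAction.ofQuotientStabilizer_smul T ω0 (r : T) b
  rwa [h2] at h1

end transfer

/-! ### Transitivity on chains -/

section chains

variable {F : Type*} [Field F] {n : ℕ}

/-- the action of `SL_n` on the chains -/
instance slChain (c : ℕ) : MulAction (SpecialLinearGroup (Fin n) F) (Chain F (Fin n → F) c) :=
  MulAction.compHom _ (SpecialLinearGroup.toLin' (R := F) (n := Fin n))

theorem sl_smul {c : ℕ} (g : SpecialLinearGroup (Fin n) F) (C : Chain F (Fin n → F) c) :
    g • C = C.map (SpecialLinearGroup.toLin' g) := rfl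

theorem finrank_V : finrank F (Fin n → F) = n := by simp

/-- adapted families -/
theorem exists_adapted (C : Chain F (Fin n → F) 1) (i : ℕ) (hi : i < n) : ∃ b, b ∈ C.S (i + 1) ∧ b ∉ C.S i := by
  have h1 : finrank F (C.S i) = i := by
    rcases Nat.eq_zero_or_pos i with rfl | h0
    · rw [C.bot 0 (by omega), finrank_bot]
    · rw [C.rank i h0, finrank_V, min_eq_left (by omega)]
  have h2 : finrank F (C.S (i + 1)) = i + 1 := by
    rw [C.rank (i + 1) (by omega), finrank_V, min_eq_left (by omega)]
  by_contra hcon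
  push Not at hcon
  have h3 : C.S (i + 1) ≤ C.S i := fun x hx => hcon x hx
  have h4 := Submodule.finrank_mono h3
  omega

theorem span_adapted (C : Chain F (Fin n → F) 1) {b : Fin n → (Fin n → F)}
    (hb : ∀ i : Fin n, b i ∈ C.S (i + 1) ∧ b i ∉ C.S i) (k : ℕ) (hk : k ≤ n) :
    Submodule.span F {x | ∃ i : Fin n, (i : ℕ) < k ∧ x = b i} = C.S k := by
  induction k with
  | zero =>
    rw [C.bot 0 (by omega)]
    have h1 : {x | ∃ i : Fin n, (i : ℕ) < 0 ∧ x = b i} = ∅ := by
      ext x
      simp
    rw [h1, Submodule.span_empty]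
  | succ k ih =>
    have h1 : {x | ∃ i : Fin n, (i : ℕ) < k + 1 ∧ x = b i} =
        {x | ∃ i : Fin n, (i : ℕ) < k ∧ x = b i} ∪ {b ⟨k, by omega⟩} := by
      ext x
      constructor
      · rintro ⟨i, hi, rfl⟩
        rcases Nat.lt_succ_iff_lt_or_eq.1 hi with h | h
        · exact Or.inl ⟨i, h, rfl⟩
        · right
          have : i = ⟨k, by omega⟩ := Fin.ext h
          rw [this]
          rfl
      · rintro (⟨i, hi, rfl⟩ | h)
        · exact ⟨i, by omega, rfl⟩
        · exact ⟨⟨k, by omega⟩, Nat.lt_succ_self k, h⟩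
    rw [h1, Submodule.span_union, ih (by omega)]
    have hb' := hb ⟨k, by omega⟩
    rcases Nat.eq_zero_or_pos k with rfl | h0
    · rw [C.bot 0 (by omega), bot_sup_eq]
      refine Submodule.eq_of_le_of_finrank_eq ((Submodule.span_singleton_le_iff_mem _ _).2 hb'.1) ?_
      have h2 : b ⟨0, by omega⟩ ≠ 0 := fun h => hb'.2 (by rw [h]; exact Submodule.zero_mem _)
      rw [finrank_span_singleton h2, C.rank _ (by omega), finrank_V, min_eq_left (by omega)]
    · exact C.sup_eq h0 hb'.2 hb'.1

/-- the matrix of an adapted family is invertible -/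
theorem det_adapted (C : Chain F (Fin n → F) 1) {b : Fin n → (Fin n → F)}
    (hb : ∀ i : Fin n, b i ∈ C.S (i + 1) ∧ b i ∉ C.S i) : (Matrix.of b)ᵀ.det ≠ 0 := by
  have h1 : ⊤ ≤ Submodule.span F (Set.range b) := by
    rw [← C.eq_top (i := n + 1) (by omega) (by rw [finrank_V]; omega)]
    have h2 : C.S (n + 1) = C.S n ∨ n = 0 := by
      rcases Nat.eq_zero_or_pos n with h | h
      · exact Or.inr h
      · left
        rw [C.eq_top (by omega) (by rw [finrank_V]; omega), C.eq_top (by omega) (by rw [finrank_V])]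
    rcases h2 with h2 | h2
    · rw [h2, ← span_adapted C hb n le_rfl]
      refine Submodule.span_mono ?_
      rintro x ⟨i, -, rfl⟩
      exact ⟨i, rfl⟩
    · subst h2
      intro x _
      have : x = 0 := Subsingleton.elim _ _
      rw [this]
      exact Submodule.zero_mem _
  have h2 : LinearIndependent F b := linearIndependent_of_top_le_span_of_card_eq_finrank h1 (by simp)
  have h3 : IsUnit (Matrix.of b) := Matrix.linearIndependent_rows_iff_isUnit.1 h2
  rw [Matrix.det_transpose]
  exact ((Matrix.isUnit_iff_isUnit_det _).1 h3).ne_zero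

/-- the standard chain is mapped to every chain -/
theorem exists_sl (hn : 0 < n) (C D : Chain F (Fin n → F) 1) : ∃ g : SpecialLinearGroup (Fin n) F, g • C = D := by
  have key : ∀ C : Chain F (Fin n → F) 1, ∃ (g : SpecialLinearGroup (Fin n) F), ∀ k, k ≤ n → C.S k =
      (Submodule.span F {x | ∃ i : Fin n, (i : ℕ) < k ∧ x = Pi.single i 1}).map
        (SpecialLinearGroup.toLin' g : (Fin n → F) →ₗ[F] (Fin n → F)) := by
    intro C
    choose b hb using fun i : Fin n => exists_adapted C i i.2
    have hd := det_adapted C hb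
    let b' : Fin n → (Fin n → F) := Function.update b ⟨0, hn⟩ (((Matrix.of b)ᵀ.det)⁻¹ • b ⟨0, hn⟩)
    have hb' : ∀ i : Fin n, b' i ∈ C.S (i + 1) ∧ b' i ∉ C.S i := by
      intro i
      by_cases hi : i = ⟨0, hn⟩
      · subst hi
        change Function.update b _ _ _ ∈ _ ∧ Function.update b _ _ _ ∉ _
        rw [Function.update_self]
        refine ⟨Submodule.smul_mem _ _ (hb _).1, fun h => (hb ⟨0, hn⟩).2 ?_⟩
        exact (Submodule.smul_mem_iff _ (inv_ne_zero hd)).1 h
      · change Function.update b _ _ _ ∈ _ ∧ Function.update b _ _ _ ∉ _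
        rw [Function.update_of_ne hi]
        exact hb i
    have hdet : (Matrix.of b')ᵀ.det = 1 := by
      have h1 : (Matrix.of b')ᵀ = Matrix.updateCol (Matrix.of b)ᵀ ⟨0, hn⟩
          (((Matrix.of b)ᵀ.det)⁻¹ • b ⟨0, hn⟩) := by
        ext i j
        rw [Matrix.transpose_apply, Matrix.of_apply, Matrix.updateCol_apply]
        by_cases hj : j = ⟨0, hn⟩
        · rw [if_pos hj]
          change Function.update b _ _ _ _ = _
          rw [hj, Function.update_self]
        · rw [if_neg hj]
          change Function.update b _ _ _ _ = _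
          rw [Function.update_of_ne hj]
          rfl
      rw [h1, Matrix.det_updateCol_smul]
      have h2 : Matrix.updateCol (Matrix.of b)ᵀ ⟨0, hn⟩ (b ⟨0, hn⟩) = (Matrix.of b)ᵀ := by
        ext i j
        rw [Matrix.updateCol_apply]
        by_cases hj : j = ⟨0, hn⟩
        · rw [if_pos hj, hj]
          rfl
        · rw [if_neg hj]
      rw [h2, inv_mul_cancel₀ hd]
    refine ⟨⟨(Matrix.of b')ᵀ, hdet⟩, fun k hk => ?_⟩
    rw [Submodule.map_span, ← span_adapted C hb' k hk]
    congr 1
    have hcol : ∀ i : Fin n, (SpecialLinearGroup.toLin' (⟨(Matrix.of b')ᵀ, hdet⟩ : SpecialLinearGroup (Fin n) F) :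
        (Fin n → F) →ₗ[F] (Fin n → F)) (Pi.single i 1) = b' i := by
      intro i
      change Matrix.toLin' (Matrix.of b')ᵀ (Pi.single i 1) = _
      rw [Matrix.toLin'_apply, Matrix.mulVec_single_one]
      rfl
    ext x
    constructor
    · rintro ⟨i, hi, rfl⟩
      exact ⟨Pi.single i 1, ⟨i, hi, rfl⟩, hcol i⟩
    · rintro ⟨_, ⟨i, hi, rfl⟩, rfl⟩
      exact ⟨i, hi, hcol i⟩
  obtain ⟨g, hg⟩ := key C
  obtain ⟨h, hh⟩ := key D
  refine ⟨h * g⁻¹, ?_⟩
  rw [mul_smul]
  have h1 : ∀ (g : SpecialLinearGroup (Fin n) F) (X : Submodule F (Fin n → F)),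
      (X.map (SpecialLinearGroup.toLin' g : (Fin n → F) →ₗ[F] (Fin n → F))).map
        (SpecialLinearGroup.toLin' g⁻¹ : (Fin n → F) →ₗ[F] (Fin n → F)) = X := by
    intro g X
    rw [← Submodule.map_comp]
    have h2 : (SpecialLinearGroup.toLin' g⁻¹ : (Fin n → F) →ₗ[F] (Fin n → F)) ∘ₗ
        (SpecialLinearGroup.toLin' g : (Fin n → F) →ₗ[F] (Fin n → F)) = LinearMap.id := by
      rw [map_inv]
      ext x
      simp
    rw [h2, Submodule.map_id]
  refine Chain.ext (funext fun k => ?_)
  rw [sl_smul, sl_smul, Chain.map_S, Chain.map_S]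
  by_cases hk : k ≤ n
  · rw [hg k hk, h1, hh k hk]
  · rw [C.eq_top (by omega) (by rw [finrank_V]; omega), D.eq_top (by omega) (by rw [finrank_V]; omega),
      Submodule.map_top, LinearEquiv.range, Submodule.map_top, LinearEquiv.range]

theorem exists_chain : Nonempty (Chain F (Fin n → F) 1) := by
  let B : ℕ → Submodule F (Fin n → F) := fun k => Submodule.span F {x | ∃ i : Fin n, (i : ℕ) < k ∧ x = Pi.single i 1}
  have hmono : Monotone B := by
    intro i j hij
    refine Submodule.span_mono ?_
    rintro x ⟨l, hl, rfl⟩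
    exact ⟨l, by omega, rfl⟩
  have hrank : ∀ k, k ≤ n → finrank F (B k) = k := by
    intro k hk
    induction k with
    | zero =>
      have h1 : {x : Fin n → F | ∃ i : Fin n, (i : ℕ) < 0 ∧ x = Pi.single i 1} = ∅ := by
        ext x
        simp
      change finrank F (Submodule.span F _) = 0
      rw [h1, Submodule.span_empty, finrank_bot]
    | succ k ih =>
      have h1 : {x : Fin n → F | ∃ i : Fin n, (i : ℕ) < k + 1 ∧ x = Pi.single i 1} =
          {x | ∃ i : Fin n, (i : ℕ) < k ∧ x = Pi.single i 1} ∪ {Pi.single ⟨k, by omega⟩ 1} := by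
        ext x
        constructor
        · rintro ⟨i, hi, rfl⟩
          rcases Nat.lt_succ_iff_lt_or_eq.1 hi with h | h
          · exact Or.inl ⟨i, h, rfl⟩
          · right
            have : i = ⟨k, by omega⟩ := Fin.ext h
            rw [this]
            rfl
        · rintro (⟨i, hi, rfl⟩ | h)
          · exact ⟨i, by omega, rfl⟩
          · exact ⟨⟨k, by omega⟩, Nat.lt_succ_self k, h⟩
      have h2 : B (k + 1) = B k ⊔ F ∙ (Pi.single (⟨k, by omega⟩ : Fin n) (1 : F)) := by
        change Submodule.span F _ = _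
        rw [h1, Submodule.span_union]
      have h3 : (Pi.single (⟨k, by omega⟩ : Fin n) (1 : F)) ∉ B k := by
        intro h
        have h4 : B k ≤ LinearMap.ker (LinearMap.proj (⟨k, by omega⟩ : Fin n) : (Fin n → F) →ₗ[F] F) := by
          rw [Submodule.span_le]
          rintro x ⟨i, hi, rfl⟩
          change (Pi.single i (1 : F) : Fin n → F) ⟨k, by omega⟩ = 0
          rw [Pi.single_apply, if_neg]
          intro h5
          rw [← h5] at hi
          exact absurd hi (lt_irrefl _)
        have h5 := h4 h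
        change (Pi.single (⟨k, by omega⟩ : Fin n) (1 : F) : Fin n → F) ⟨k, by omega⟩ = 0 at h5
        rw [Pi.single_eq_same] at h5
        exact one_ne_zero h5
      rw [h2, finrank_sup h3, ih (by omega)]
  refine ⟨⟨B, hmono, ?_, ?_⟩⟩
  · intro i hi
    have : i = 0 := by omega
    subst this
    exact Submodule.finrank_eq_zero.1 (hrank 0 (Nat.zero_le _))
  · intro i _
    rw [finrank_V]
    rcases le_total i n with h | h
    · rw [min_eq_left h, hrank i h]
    · rw [min_eq_right h]
      refine le_antisymm ((Submodule.finrank_le _).trans (by rw [finrank_V])) ?_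
      exact (hrank n le_rfl).symm.le.trans (Submodule.finrank_mono (hmono h))

theorem exists_sl_step {c : ℕ} (hc : c < n)
    (h : ∀ C D : Chain F (Fin n → F) c, ∃ g : SpecialLinearGroup (Fin n) F, g • C = D)
    (C D : Chain F (Fin n → F) (c + 1)) : ∃ g : SpecialLinearGroup (Fin n) F, g • C = D := by
  obtain ⟨C', rfl⟩ := Chain.exists_drop (by rw [finrank_V]; exact hc) C
  obtain ⟨D', rfl⟩ := Chain.exists_drop (by rw [finrank_V]; exact hc) D
  obtain ⟨g, rfl⟩ := h C' D'
  exact ⟨g, by rw [sl_smul, sl_smul, Chain.drop_map]⟩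

end chains

end Cfsg.Agent.H131.OddP1
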