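import Cfsg.Agent.H131.OddP1A
import Cfsg.Agent.CpAutJ4.Isol

/-!
# The unipotent radical of the stabilizer of a line in `SL_n(q)` (helper131, S4785, part C4)
-/

set_option autoImplicit false
set_option linter.unusedSectionVars false

namespace Cfsg.Agent.H131.OddP1

open Module Matrix Cfsg.Agent.H453.OddM Cfsg.Agent.H131.OddChain

/-! ### A group lemma -/

section grp

theorem dvd_of_modEq {p r a b : ℕ} (hp : p.Prime) (hr : r.Prime) (hrp : r ≠ p) (hba : b ≤ a)
    (h : p ^ b ≡ p ^ a [MOD r]) : r ∣ p ^ (a - b) - 1 := by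
  have h1 : r ∣ p ^ a - p ^ b := (Nat.modEq_iff_dvd' (Nat.pow_le_pow_right hp.pos hba)).1 h
  have h2 : p ^ a - p ^ b = p ^ b * (p ^ (a - b) - 1) := by
    rw [Nat.mul_sub, mul_one, ← pow_add, Nat.add_sub_cancel' hba]
  rw [h2] at h1
  exact (Nat.Coprime.pow_right b ((Nat.coprime_primes hr hp).2 hrp)).dvd_of_dvd_mul_left h1

/-- an element of order `r` acting on a group of order `p ^ N`, `r` a primitive prime divisor of `p ^ N - 1` -/
theorem inv_sub {G : Type*} [Group G] [Finite G] {p r N : ℕ} (hp : p.Prime) (hr : r.Prime) (hrp : r ≠ p)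
    {U X : Subgroup G} (hU : Nat.card ↥U = p ^ N) (hXU : X ≤ U) {h : G} (hh : orderOf h = r)
    (hhU : ∀ u ∈ U, h * u * h⁻¹ ∈ U) (hhX : ∀ u ∈ X, h * u * h⁻¹ ∈ X)
    (hprim : ∀ i, 0 < i → i < N → ¬ r ∣ p ^ i - 1) : X = ⊥ ∨ X = U ∨ ∀ u ∈ U, h * u = u * h := by
  have hrf : Fact r.Prime := ⟨hr⟩
  have key : ∀ Y : Subgroup G, Y ≤ U → (∀ u ∈ Y, h * u * h⁻¹ ∈ Y) → ∃ a b : ℕ, a ≤ N ∧ b ≤ a ∧
      Nat.card ↥Y = p ^ a ∧ Nat.card ↥(Y ⊓ Subgroup.centralizer ({h} : Set G)) = p ^ b ∧ r ∣ p ^ (a - b) - 1 := by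
    intro Y hY hhY
    obtain ⟨a, ha, ha'⟩ := (Nat.dvd_prime_pow hp).1 (hU ▸ Subgroup.card_dvd_of_le hY)
    obtain ⟨b, hb, hb'⟩ := (Nat.dvd_prime_pow hp).1 (ha' ▸ Subgroup.card_dvd_of_le
      (inf_le_left : Y ⊓ Subgroup.centralizer ({h} : Set G) ≤ Y))
    refine ⟨a, b, ha, hb, ha', hb', dvd_of_modEq hp hr hrp hb ?_⟩
    have h1 := Cfsg.Agent.CpAutJ4.card_fix hh (Y : Set G) hhY
    have h2 : Nat.card {a : G // a ∈ (Y : Set G) ∧ h * a = a * h} =
        Nat.card ↥(Y ⊓ Subgroup.centralizer ({h} : Set G)) := by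
      refine Nat.card_congr (Equiv.subtypeEquivRight fun a => ?_)
      rw [Subgroup.mem_inf, Subgroup.mem_centralizer_singleton_iff]
      exact ⟨fun h => ⟨h.1, h.2.symm⟩, fun h => ⟨h.1, h.2.symm⟩⟩
    rw [h2, hb'] at h1
    have h3 : Nat.card ↥(Y : Set G) = p ^ a := ha'
    rw [h3] at h1
    exact h1.symm
  obtain ⟨a, b, ha, hb, hXa, hXb, hd⟩ := key X hXU hhX
  by_cases haN : a = N
  · right; left
    refine Subgroup.eq_of_le_of_card_ge hXU ?_
    rw [hXa, hU, haN]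
  by_cases ha0 : a = 0
  · left
    rw [ha0, pow_zero] at hXa
    exact Subgroup.card_eq_one.1 hXa
  have hab : a = b := by
    by_contra hne
    exact hprim (a - b) (by omega) (by omega) hd
  right; right
  obtain ⟨a', b', ha', hb', hUa, hUb, hd'⟩ := key U le_rfl hhU
  have haN' : a' = N := by
    rw [hU] at hUa
    exact (Nat.pow_right_injective hp.two_le hUa).symm
  -- `b' > 0`
  have hle : X ⊓ Subgroup.centralizer ({h} : Set G) ≤ U ⊓ Subgroup.centralizer ({h} : Set G) :=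
    inf_le_inf_right _ hXU
  have hb0 : 0 < b' := by
    by_contra h0
    have h1 : b' = 0 := by omega
    have h2 := Subgroup.card_dvd_of_le hle
    rw [hXb, hUb, h1, pow_zero, Nat.dvd_one] at h2
    have h3 : b = 0 := by
      by_contra h3
      exact (Nat.one_lt_pow h3 hp.one_lt).ne' h2
    omega
  have hbN : b' = N := by
    by_contra hne
    exact hprim (a' - b') (by omega) (by omega) hd'
  have h1 : U ⊓ Subgroup.centralizer ({h} : Set G) = U :=
    Subgroup.eq_of_le_of_card_ge inf_le_left (by rw [hU, hUb, hbN])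
  intro u hu
  rw [← h1] at hu
  exact (Subgroup.mem_centralizer_singleton_iff.1 hu.2).symm

end grp

/-! ### Matrices -/

section mat

variable {F : Type*} [Field F] {n : ℕ}

/-- the action on column vectors -/
def ac (A : SpecialLinearGroup (Fin n) F) (x : Fin n → F) : Fin n → F := (A : Matrix (Fin n) (Fin n) F) *ᵥ x

theorem ac_def (A : SpecialLinearGroup (Fin n) F) (x : Fin n → F) :
    ac A x = (A : Matrix (Fin n) (Fin n) F) *ᵥ x := rfl

theorem ac_one (x : Fin n → F) : ac (1 : SpecialLinearGroup (Fin n) F) x = x := one_mulVec x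

theorem ac_mul (A B : SpecialLinearGroup (Fin n) F) (x : Fin n → F) : ac (A * B) x = ac A (ac B x) :=
  (mulVec_mulVec x A.1 B.1).symm

theorem ac_add (A : SpecialLinearGroup (Fin n) F) (x y : Fin n → F) : ac A (x + y) = ac A x + ac A y :=
  mulVec_add _ _ _

theorem ac_smul (A : SpecialLinearGroup (Fin n) F) (c : F) (x : Fin n → F) : ac A (c • x) = c • ac A x :=
  mulVec_smul _ _ _

theorem ac_inv (A : SpecialLinearGroup (Fin n) F) (x : Fin n → F) : ac A⁻¹ (ac A x) = x := by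
  rw [← ac_mul, inv_mul_cancel, ac_one]

theorem ac_inv' (A : SpecialLinearGroup (Fin n) F) (x : Fin n → F) : ac A (ac A⁻¹ x) = x := by
  rw [← ac_mul, mul_inv_cancel, ac_one]

/-- the stabilizer of the line of `v` -/
def lineStab (v : Fin n → F) : Subgroup (SpecialLinearGroup (Fin n) F) where
  carrier := {A | ∃ c : F, c ≠ 0 ∧ ac A v = c • v}
  one_mem' := ⟨1, one_ne_zero, by rw [ac_one, one_smul]⟩
  mul_mem' := by
    rintro A B ⟨c, hc, hA⟩ ⟨d, hd, hB⟩
    refine ⟨c * d, mul_ne_zero hc hd, ?_⟩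
    rw [ac_mul, hB, ac_smul, hA, smul_smul, mul_comm]
  inv_mem' := by
    rintro A ⟨c, hc, hA⟩
    refine ⟨c⁻¹, inv_ne_zero hc, ?_⟩
    have h1 : ac A⁻¹ (ac A v) = v := by
      exact ac_inv A v
    rw [hA, ac_smul] at h1
    rw [← h1, smul_smul, inv_mul_cancel₀ hc, one_smul]
    rw [h1]

theorem sl_ext {A B : SpecialLinearGroup (Fin n) F} (h : ∀ x, ac A x = ac B x) : A = B := by
  apply Subtype.ext
  ext i j
  have h1 := congrFun (h (Pi.single j 1)) i
  rw [ac_def, ac_def, mulVec_single_one, mulVec_single_one] at h1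
  exact h1

/-- the elements acting trivially on `v` and modulo `v` -/
def rad (v : Fin n → F) : Subgroup (SpecialLinearGroup (Fin n) F) where
  carrier := {A | ac A v = v ∧ ∀ x, ∃ a : F, ac A x = x + a • v}
  one_mem' := ⟨by rw [ac_one], fun x => ⟨0, by
    rw [ac_one, zero_smul, add_zero]⟩⟩
  mul_mem' := by
    rintro A B ⟨hA, hA'⟩ ⟨hB, hB'⟩
    refine ⟨by rw [ac_mul, hB, hA], fun x => ?_⟩
    obtain ⟨a, ha⟩ := hA' x
    obtain ⟨b, hb⟩ := hB' x
    refine ⟨a + b, ?_⟩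
    rw [ac_mul, hb, ac_add, ac_smul, hA, ha, add_smul, add_assoc]
  inv_mem' := by
    rintro A ⟨hA, hA'⟩
    have h1 : ac A⁻¹ v = v := by
      nth_rewrite 1 [← hA]
      exact ac_inv A v
    refine ⟨h1, fun x => ?_⟩
    obtain ⟨a, ha⟩ := hA' x
    refine ⟨-a, ?_⟩
    have h2 := ac_inv A x
    rw [ha, ac_add, ac_smul, h1] at h2
    rw [neg_smul, ← sub_eq_add_neg, eq_sub_iff_add_eq]
    exact h2

/-- the transvections -/
def tv (v φ : Fin n → F) (h : φ ⬝ᵥ v = 0) : SpecialLinearGroup (Fin n) F :=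
  ⟨1 + vecMulVec v φ, by
    rw [vecMulVec_eq Unit, det_one_add_replicateCol_mul_replicateRow, h, add_zero]⟩

theorem tv_ac {v φ : Fin n → F} (h : φ ⬝ᵥ v = 0) (x : Fin n → F) :
    ac (tv v φ h) x = x + (φ ⬝ᵥ x) • v := by
  change (1 + vecMulVec v φ) *ᵥ x = _
  rw [add_mulVec, one_mulVec, vecMulVec_mulVec, op_smul_eq_smul]

theorem tv_mem {v φ : Fin n → F} (h : φ ⬝ᵥ v = 0) : tv v φ h ∈ rad v :=
  ⟨by rw [tv_ac, h, zero_smul, add_zero], fun x => ⟨_, tv_ac h x⟩⟩

theorem exists_tv {v : Fin n → F} (hv : v ≠ 0) {A : SpecialLinearGroup (Fin n) F} (hA : A ∈ rad v) :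
    ∃ (φ : Fin n → F) (h : φ ⬝ᵥ v = 0), A = tv v φ h := by
  obtain ⟨k, hk⟩ := Function.ne_iff.1 hv
  have hk' : v k ≠ 0 := hk
  let φ : Fin n → F := fun j => (v k)⁻¹ * (A.1 - 1) k j
  have h1 : ∀ x, ac A x = x + (φ ⬝ᵥ x) • v := by
    intro x
    obtain ⟨a, ha⟩ := hA.2 x
    have h2 : φ ⬝ᵥ x = (v k)⁻¹ * ((A.1 - 1) *ᵥ x) k := by
      rw [mulVec, dotProduct, dotProduct, Finset.mul_sum]
      exact Finset.sum_congr rfl fun j _ => mul_assoc _ _ _
    have h3 : (A.1 - 1) *ᵥ x = ac A x - x := by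
      rw [sub_mulVec, one_mulVec]
      rfl
    rw [h2, h3, ha, add_sub_cancel_left, Pi.smul_apply, smul_eq_mul, mul_comm a,
      inv_mul_cancel_left₀ hk']
  have h2 : φ ⬝ᵥ v = 0 := by
    have h3 := h1 v
    rw [hA.1] at h3
    have h4 : (φ ⬝ᵥ v) • v = 0 := by
      have := congrArg (fun y => y - v) h3
      simpa using this.symm
    exact (smul_eq_zero.1 h4).resolve_right hv
  refine ⟨φ, h2, sl_ext fun x => ?_⟩
  rw [h1, tv_ac]

theorem conj_mem_rad {v : Fin n → F} {A B : SpecialLinearGroup (Fin n) F} (hA : A ∈ lineStab v) (hB : B ∈ rad v) :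
    A * B * A⁻¹ ∈ rad v := by
  obtain ⟨c, hc, hAv⟩ := hA
  have h1 : ac A⁻¹ v = c⁻¹ • v := by
    have h1 := ac_inv A v
    rw [hAv, ac_smul] at h1
    rw [← h1, smul_smul, inv_mul_cancel₀ hc, one_smul, h1]
  refine ⟨?_, fun x => ?_⟩
  · rw [ac_mul, ac_mul, h1, ac_smul,
      hB.1, ac_smul, hAv, smul_smul, inv_mul_cancel₀ hc, one_smul]
  · obtain ⟨b, hb⟩ := hB.2 (ac A⁻¹ x)
    refine ⟨b * c, ?_⟩
    rw [ac_mul, ac_mul, hb, ac_add,
      ac_inv', ac_smul, hAv, smul_smul]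

/-- the order of the radical -/
theorem card_rad [Finite F] {v : Fin n → F} (hv : v ≠ 0) : Nat.card ↥(rad v) = Nat.card F ^ (n - 1) := by
  let f : (Fin n → F) →ₗ[F] F :=
    { toFun := fun φ => φ ⬝ᵥ v
      map_add' := fun a b => add_dotProduct a b v
      map_smul' := fun c a => smul_dotProduct c a v }
  have h1 : Nat.card ↥(rad v) = Nat.card ↥(LinearMap.ker f) := by
    refine (Nat.card_congr (Equiv.ofBijective (fun φ : ↥(LinearMap.ker f) =>
      (⟨tv v φ.1 φ.2, tv_mem φ.2⟩ : ↥(rad v))) ⟨?_, ?_⟩)).symm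
    · rintro ⟨φ, hφ⟩ ⟨ψ, hψ⟩ h
      obtain ⟨k, hk⟩ := Function.ne_iff.1 hv
      have hk' : v k ≠ 0 := hk
      have hφ' : φ ⬝ᵥ v = 0 := hφ
      have hψ' : ψ ⬝ᵥ v = 0 := hψ
      have h2 : tv v φ hφ' = tv v ψ hψ' := congrArg Subtype.val h
      refine Subtype.ext (funext fun j => ?_)
      have h3 : ac (tv v φ hφ') (Pi.single j 1) k = ac (tv v ψ hψ') (Pi.single j 1) k := by rw [h2]
      rw [tv_ac, tv_ac, dotProduct_single, dotProduct_single, mul_one, mul_one, Pi.add_apply, Pi.add_apply,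
        Pi.smul_apply, Pi.smul_apply, smul_eq_mul, smul_eq_mul] at h3
      exact mul_right_cancel₀ hk' (add_left_cancel h3)
    · rintro ⟨A, hA⟩
      obtain ⟨φ, hφ, rfl⟩ := exists_tv hv hA
      exact ⟨⟨φ, hφ⟩, rfl⟩
  have h2 : finrank F ↥(LinearMap.ker f) = n - 1 := by
    have h3 := LinearMap.finrank_range_add_finrank_ker f
    have h4 : finrank F ↥(LinearMap.range f) = 1 := by
      have h5 : LinearMap.range f = ⊤ := by
        rw [LinearMap.range_eq_top]
        obtain ⟨k, hk⟩ := Function.ne_iff.1 hv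
        have hk' : v k ≠ 0 := hk
        intro c
        refine ⟨Pi.single k (c * (v k)⁻¹), ?_⟩
        change Pi.single k (c * (v k)⁻¹) ⬝ᵥ v = c
        rw [single_dotProduct, inv_mul_cancel_right₀ hk']
      rw [h5, finrank_top, finrank_self]
    rw [finrank_V] at h3
    omega
  rw [h1, Module.natCard_eq_pow_finrank (K := F), h2]

/-- an element of the line stabilizer centralizing the radical is scalar modulo the radical -/
theorem mem_rad_of_comm [Finite F] {v : Fin n → F} (hv : v ≠ 0) {A : SpecialLinearGroup (Fin n) F}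
    {r : ℕ} (hr : orderOf A = r) (hrq : Nat.Coprime r (Nat.card F - 1)) (hA : A ∈ lineStab v)
    (hcomm : ∀ u ∈ rad v, A * u = u * A) : A ∈ rad v := by
  obtain ⟨c, hc, hAv⟩ := hA
  -- `c = 1`
  have hpow : ∀ k : ℕ, ac (A ^ k) v = c ^ k • v := by
    intro k
    induction k with
    | zero => rw [pow_zero, pow_zero, ac_one, one_smul]
    | succ k ih =>
      rw [pow_succ, ac_mul, hAv, ac_smul, ih, smul_smul, pow_succ, mul_comm]
  have hc1 : c = 1 := by
    have h1 : c ^ r = 1 := by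
      have h2 := hpow r
      rw [← hr, pow_orderOf_eq_one, ac_one, hr] at h2
      have h3 : (c ^ r - 1) • v = 0 := by rw [sub_smul, one_smul, ← h2, sub_self]
      exact sub_eq_zero.1 ((smul_eq_zero.1 h3).resolve_right hv)
    have h2 : c ^ (Nat.card F - 1) = 1 := by
      have := Fintype.ofFinite F
      rw [Nat.card_eq_fintype_card]
      exact FiniteField.pow_card_sub_one_eq_one c hc
    have h3 := pow_gcd_eq_one.2 ⟨h1, h2⟩
    rw [hrq] at h3
    rwa [pow_one] at h3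
  subst hc1
  rw [one_smul] at hAv
  refine ⟨hAv, fun x => ?_⟩
  -- all functionals vanishing on `v` vanish on `A x - x`
  by_contra hcon
  have h1 : ac A x - x ∉ F ∙ v := by
    intro h
    obtain ⟨a, ha⟩ := Submodule.mem_span_singleton.1 h
    exact hcon ⟨a, by rw [ha]; abel⟩
  obtain ⟨f, hf, hfv⟩ := Submodule.exists_le_ker_of_notMem h1
  have hfv' : f v = 0 := hfv (Submodule.mem_span_singleton_self v)
  let φ : Fin n → F := fun i => f (Pi.single i 1)
  have hφ : ∀ y, φ ⬝ᵥ y = f y := by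
    intro y
    rw [dotProduct]
    have h2 : f y = f (∑ i, y i • Pi.single i (1 : F)) := by
      congr 1
      funext j
      simp [Finset.sum_apply, Pi.single_apply]
    rw [h2, map_sum]
    refine Finset.sum_congr rfl fun i _ => ?_
    rw [map_smul, smul_eq_mul, mul_comm]
  have hφv : φ ⬝ᵥ v = 0 := by rw [hφ, hfv']
  have h2 := congrArg (fun B : SpecialLinearGroup (Fin n) F => ac B x) (hcomm _ (tv_mem hφv))
  simp only [ac_mul, tv_ac, ac_add, ac_smul, hAv] at h2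
  have h3 : (φ ⬝ᵥ x) • v = (φ ⬝ᵥ (ac A x)) • v := add_left_cancel h2
  have h4 : (f (ac A x - x)) • v = 0 := by
    rw [map_sub, sub_smul, ← hφ, ← hφ, ← h3, sub_self]
  exact hf ((smul_eq_zero.1 h4).resolve_right hv)

end mat

end Cfsg.Agent.H131.OddP1
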