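import Cfsg.Agent.H131.OddP1B

/-!
# A real regular unipotent element of `SL_n(q)`, `n` odd, and a homology of order two (helper131, S4785, part C4)
-/

set_option autoImplicit false
set_option linter.unusedSectionVars false

namespace Cfsg.Agent.H131.OddP1

open Module Matrix Cfsg.Agent.H453.OddM Cfsg.Agent.H131.OddChain

section

variable {F : Type*} [Field F] {n : ℕ}

/-! ### The regular unipotent element -/

/-- the shift -/
def sh (n : ℕ) (F : Type*) [Field F] : Matrix (Fin n) (Fin n) F :=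
  Matrix.of fun i j => if (j : ℕ) = i + 1 then 1 else 0

theorem sh_apply (i j : Fin n) : sh n F i j = if (j : ℕ) = i + 1 then 1 else 0 := rfl

theorem sh_mulVec (y : Fin n → F) (i : Fin n) :
    (sh n F *ᵥ y) i = if h : (i : ℕ) + 1 < n then y ⟨i + 1, h⟩ else 0 := by
  rw [mulVec, dotProduct]
  by_cases h : (i : ℕ) + 1 < n
  · rw [dif_pos h, Finset.sum_eq_single (⟨i + 1, h⟩ : Fin n)]
    · rw [sh_apply, if_pos rfl, one_mul]
    · intro j _ hj
      rw [sh_apply, if_neg, zero_mul]
      intro h1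
      exact hj (Fin.ext h1)
    · intro h1
      exact absurd (Finset.mem_univ _) h1
  · rw [dif_neg h]
    refine Finset.sum_eq_zero fun j _ => ?_
    rw [sh_apply, if_neg, zero_mul]
    intro h1
    have := j.2
    omega

theorem sh_vecMul (y : Fin n → F) (i : Fin n) :
    (y ᵥ* sh n F) i = if h : 0 < (i : ℕ) then y ⟨i - 1, by omega⟩ else 0 := by
  rw [vecMul, dotProduct]
  by_cases h : 0 < (i : ℕ)
  · rw [dif_pos h, Finset.sum_eq_single (⟨i - 1, by omega⟩ : Fin n)]
    · rw [sh_apply, if_pos, mul_one]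
      change (i : ℕ) = (i - 1) + 1
      omega
    · intro j _ hj
      rw [sh_apply, if_neg, mul_zero]
      intro h1
      apply hj
      apply Fin.ext
      change (j : ℕ) = i - 1
      omega
    · intro h1
      exact absurd (Finset.mem_univ _) h1
  · rw [dif_neg h]
    refine Finset.sum_eq_zero fun j _ => ?_
    rw [sh_apply, if_neg, mul_zero]
    intro h1
    omega

/-- an eigenvector of the shift -/
theorem sh_eigen {y : Fin n → F} {l : F} (h : sh n F *ᵥ y = l • y) (hy : y ≠ 0) :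
    ∀ i : Fin n, 0 < (i : ℕ) → y i = 0 := by
  have h1 : ∀ i : Fin n, (if h : (i : ℕ) + 1 < n then y ⟨i + 1, h⟩ else 0) = l * y i := by
    intro i
    rw [← sh_mulVec, h, Pi.smul_apply, smul_eq_mul]
  have hl : l = 0 := by
    by_contra hl
    apply hy
    -- downwards
    have key : ∀ k : ℕ, ∀ i : Fin n, (i : ℕ) + k + 1 = n → y i = 0 := by
      intro k
      induction k with
      | zero =>
        intro i hi
        have h2 := h1 i
        rw [dif_neg (by omega)] at h2
        exact (mul_eq_zero.1 h2.symm).resolve_left hl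
      | succ k ih =>
        intro i hi
        have h2 := h1 i
        rw [dif_pos (by omega), ih ⟨i + 1, by omega⟩ (by change (i : ℕ) + 1 + k + 1 = n; omega)] at h2
        exact (mul_eq_zero.1 h2.symm).resolve_left hl
    funext i
    exact key (n - 1 - i) i (by have := i.2; omega)
  intro i hi
  have h2 := h1 ⟨i - 1, by omega⟩
  rw [hl, zero_mul] at h2
  have hlt : ((⟨i - 1, by omega⟩ : Fin n) : ℕ) + 1 < n := by
    change (i : ℕ) - 1 + 1 < n
    omega
  rw [dif_pos hlt] at h2
  rw [← h2]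
  congr 1
  apply Fin.ext
  change (i : ℕ) = i - 1 + 1
  omega

/-- a left eigenvector of the shift -/
theorem sh_eigen' {y : Fin n → F} {l : F} (h : y ᵥ* sh n F = l • y) (hy : y ≠ 0) :
    ∀ i : Fin n, (i : ℕ) + 1 < n → y i = 0 := by
  have h1 : ∀ i : Fin n, (if h : 0 < (i : ℕ) then y ⟨i - 1, by omega⟩ else 0) = l * y i := by
    intro i
    rw [← sh_vecMul, h, Pi.smul_apply, smul_eq_mul]
  have hl : l = 0 := by
    by_contra hl
    apply hy
    have key : ∀ k : ℕ, ∀ i : Fin n, (i : ℕ) = k → y i = 0 := by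
      intro k
      induction k with
      | zero =>
        intro i hi
        have h2 := h1 i
        rw [dif_neg (by omega)] at h2
        exact (mul_eq_zero.1 h2.symm).resolve_left hl
      | succ k ih =>
        intro i hi
        have h2 := h1 i
        rw [dif_pos (by omega), ih ⟨i - 1, by omega⟩ (by change (i : ℕ) - 1 = k; omega)] at h2
        exact (mul_eq_zero.1 h2.symm).resolve_left hl
    funext i
    exact key i i rfl
  intro i hi
  have h2 := h1 ⟨i + 1, hi⟩
  rw [hl, zero_mul] at h2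
  have hlt : 0 < ((⟨i + 1, hi⟩ : Fin n) : ℕ) := Nat.succ_pos _
  rw [dif_pos hlt] at h2
  rw [← h2]
  congr 1

theorem det_unitri (a : F) : (1 + a • sh n F).det = 1 := by
  rw [Matrix.det_of_isUpperTriangular]
  · refine Finset.prod_eq_one fun i _ => ?_
    rw [Matrix.add_apply, one_apply_eq, Matrix.smul_apply, sh_apply, if_neg (by omega), smul_zero, add_zero]
  · intro i j hij
    change j < i at hij
    have hij' : (j : ℕ) < i := hij
    rw [Matrix.add_apply, one_apply_ne (ne_of_gt hij), Matrix.smul_apply, sh_apply, if_neg (by omega), smul_zero, add_zero]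

/-- `1 + a N` -/
def ut (n : ℕ) {F : Type*} [Field F] (a : F) : SpecialLinearGroup (Fin n) F := ⟨1 + a • sh n F, det_unitri a⟩

/-- the regular unipotent element `(1 + N) (1 - N)⁻¹` -/
noncomputable def ru (n : ℕ) (F : Type*) [Field F] : SpecialLinearGroup (Fin n) F := ut n 1 * (ut n (-1))⁻¹

/-- the signs -/
def dg (n : ℕ) (F : Type*) [Field F] : Matrix (Fin n) (Fin n) F := diagonal fun i => (-1) ^ (i : ℕ)

theorem dg_sq : dg n F * dg n F = 1 := by
  rw [dg, diagonal_mul_diagonal]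
  have h : (fun i : Fin n => (-1 : F) ^ (i : ℕ) * (-1) ^ (i : ℕ)) = 1 := by
    funext i
    rw [← mul_pow, neg_one_mul, neg_neg, one_pow, Pi.one_apply]
  rw [h]
  exact diagonal_one

theorem dg_sh : dg n F * sh n F = -(sh n F * dg n F) := by
  ext i j
  rw [dg, diagonal_mul, neg_apply, mul_diagonal, sh_apply]
  by_cases h : (j : ℕ) = i + 1
  · rw [if_pos h, h, mul_one, one_mul, pow_succ, mul_neg_one, neg_neg]
  · rw [if_neg h, mul_zero, zero_mul, neg_zero]

/-- the regular unipotent element is real, `n` odd -/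
theorem ru_real (hn : Odd n) : IsReal (ru n F) := by
  have hd : (dg n F).det * (dg n F).det = 1 := by rw [← det_mul, dg_sq, det_one]
  have hdet : ((dg n F).det • dg n F).det = 1 := by
    rw [det_smul, Fintype.card_fin]
    obtain ⟨k, rfl⟩ := hn
    have h1 : (dg (2 * k + 1) F).det ^ (2 * k + 1) * (dg (2 * k + 1) F).det =
        ((dg (2 * k + 1) F).det * (dg (2 * k + 1) F).det) ^ (k + 1) := by ring
    rw [h1, hd, one_pow]
  let g : SpecialLinearGroup (Fin n) F := ⟨(dg n F).det • dg n F, hdet⟩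
  have key : ∀ a : F, g * ut n a = ut n (-a) * g := by
    intro a
    apply Subtype.ext
    change ((dg n F).det • dg n F) * (1 + a • sh n F) = (1 + (-a) • sh n F) * ((dg n F).det • dg n F)
    rw [mul_add, add_mul, mul_one, one_mul, smul_mul_smul_comm, smul_mul_smul_comm, dg_sh, smul_neg, neg_mul,
      neg_smul, mul_comm a]
  refine ⟨g, ?_⟩
  have h1 : g * ut n 1 * g⁻¹ = ut n (-1) := by rw [key, mul_inv_cancel_right]
  have h2 : g * ut n (-1) * g⁻¹ = ut n 1 := by rw [key, mul_inv_cancel_right, neg_neg]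
  calc g * ru n F * g⁻¹ = (g * ut n 1 * g⁻¹) * (g * ut n (-1) * g⁻¹)⁻¹ := by rw [ru]; group
    _ = ut n (-1) * (ut n 1)⁻¹ := by rw [h1, h2]
    _ = (ru n F)⁻¹ := by rw [ru]; group

/-- **eigenvectors of the regular unipotent element** -/
theorem ru_false (h2 : (2 : F) ≠ 0) (hn : 2 ≤ n) {a ψ : Fin n → F} {c : F} (ha : ac (ru n F) a = c • a)
    (hψ : ψ ᵥ* (ru n F : SpecialLinearGroup (Fin n) F).1 = c • ψ) (h : ψ ⬝ᵥ a = 1) : False := by
  -- `y = (1 - N)⁻¹ a`
  obtain ⟨y, hy⟩ : ∃ y, y = ac (ut n (-1))⁻¹ a := ⟨_, rfl⟩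
  have hay : a = ac (ut n (-1)) y := by rw [hy, ac_inv']
  have e1 : ac (ut n 1) y = c • ac (ut n (-1)) y := by
    rw [← hay, ← ha, ru, ac_mul, ← hy]
  have hut : ∀ (b : F) (x : Fin n → F), ac (ut n b) x = x + b • (sh n F *ᵥ x) := by
    intro b x
    change (1 + b • sh n F) *ᵥ x = _
    rw [add_mulVec, one_mulVec, smul_mulVec]
  have e2 : ψ ᵥ* (ut n (1 : F)).1 = c • (ψ ᵥ* (ut n (-1 : F)).1) := by
    have e3 : (ru n F).1 * (ut n (-1 : F)).1 = (ut n (1 : F)).1 := by
      have e4 : ru n F * ut n (-1 : F) = ut n (1 : F) := by rw [ru, inv_mul_cancel_right]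
      exact congrArg Subtype.val e4
    rw [← e3, ← vecMul_vecMul, hψ, smul_vecMul]
  have hut' : ∀ (b : F), ψ ᵥ* (ut n b).1 = ψ + b • (ψ ᵥ* sh n F) := by
    intro b
    change ψ ᵥ* (1 + b • sh n F) = _
    rw [vecMul_add, vecMul_one, vecMul_smul]
  rw [hut, hut, one_smul] at e1
  rw [hut', hut', one_smul] at e2
  have hy0 : y ≠ 0 := by
    rintro rfl
    rw [hay] at h
    have h3 : ac (ut n (-1 : F)) (0 : Fin n → F) = 0 := mulVec_zero _
    rw [h3, dotProduct_zero] at h
    exact zero_ne_one h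
  have hψ0 : ψ ≠ 0 := by
    rintro rfl
    rw [zero_dotProduct] at h
    exact zero_ne_one h
  have e1' : (1 + c) • (sh n F *ᵥ y) = (c - 1) • y := by
    have : y + sh n F *ᵥ y = c • y - c • (sh n F *ᵥ y) := by
      rw [e1, smul_add, neg_smul, one_smul, smul_neg, sub_eq_add_neg]
    rw [add_smul, one_smul, sub_smul, one_smul]
    linear_combination (exp := 1) this
  have e2' : (1 + c) • (ψ ᵥ* sh n F) = (c - 1) • ψ := by
    have : ψ + ψ ᵥ* sh n F = c • ψ - c • (ψ ᵥ* sh n F) := by
      rw [e2, smul_add, neg_smul, one_smul, smul_neg, sub_eq_add_neg]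
    rw [add_smul, one_smul, sub_smul, one_smul]
    linear_combination (exp := 1) this
  by_cases hc : 1 + c = 0
  · rw [hc, zero_smul] at e1'
    have h3 : c - 1 = -2 := by linear_combination hc
    rw [h3] at e1'
    have h4 := (smul_eq_zero.1 e1'.symm).resolve_right hy0
    exact h2 (neg_eq_zero.1 h4)
  · have e3 : sh n F *ᵥ y = ((1 + c)⁻¹ * (c - 1)) • y := by
      rw [mul_smul, ← e1', smul_smul, inv_mul_cancel₀ hc, one_smul]
    have e4 : ψ ᵥ* sh n F = ((1 + c)⁻¹ * (c - 1)) • ψ := by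
      rw [mul_smul, ← e2', smul_smul, inv_mul_cancel₀ hc, one_smul]
    have h3 := sh_eigen e3 hy0
    have h4 := sh_eigen' e4 hψ0
    -- `a = y`
    have h5 : sh n F *ᵥ y = 0 := by
      funext i
      rw [sh_mulVec]
      by_cases hi : (i : ℕ) + 1 < n
      · rw [dif_pos hi, h3 _ (Nat.succ_pos _)]
        rfl
      · rw [dif_neg hi]
        rfl
    rw [hay, hut, h5, smul_zero, add_zero, dotProduct, Finset.sum_eq_zero] at h
    · exact zero_ne_one h
    · intro i _
      by_cases hi : 0 < (i : ℕ)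
      · rw [h3 i hi, mul_zero]
      · rw [h4 i (by omega), zero_mul]

/-! ### The homology of order two -/

/-- `-1 + 2 v ψ` -/
theorem exists_tau (hn : Odd n) {v ψ : Fin n → F} (h : ψ ⬝ᵥ v = 1) :
    ∃ τ : SpecialLinearGroup (Fin n) F, τ * τ = 1 ∧ ∀ x, ac τ x = -x + (2 * (ψ ⬝ᵥ x)) • v := by
  have hdet : (-(1 + vecMulVec v ((-2 : F) • ψ))).det = 1 := by
    rw [det_neg, Fintype.card_fin, hn.neg_one_pow, vecMulVec_eq Unit, det_one_add_replicateCol_mul_replicateRow,
      smul_dotProduct, h, smul_eq_mul]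
    ring
  obtain ⟨τ, h1⟩ : ∃ τ : SpecialLinearGroup (Fin n) F, ∀ x, ac τ x = -x + (2 * (ψ ⬝ᵥ x)) • v := by
    refine ⟨⟨-(1 + vecMulVec v ((-2 : F) • ψ)), hdet⟩, fun x => ?_⟩
    change (-(1 + vecMulVec v ((-2 : F) • ψ))) *ᵥ x = _
    rw [neg_mulVec, add_mulVec, one_mulVec, vecMulVec_mulVec, op_smul_eq_smul, smul_dotProduct, smul_eq_mul, neg_add,
      neg_mul, neg_smul, neg_neg]
  refine ⟨τ, sl_ext fun x => ?_, h1⟩
  rw [ac_mul, ac_one, h1, h1, dotProduct_add, dotProduct_neg, dotProduct_smul, h, smul_eq_mul, mul_one, neg_add,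
    neg_neg]
  have h3 : (2 * (-(ψ ⬝ᵥ x) + 2 * (ψ ⬝ᵥ x))) = 2 * (ψ ⬝ᵥ x) := by ring
  rw [h3, neg_add_cancel_right]

end

end Cfsg.Agent.H131.OddP1
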