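import Cfsg.Agent.H131.OddP1C

/-!
# Subgroups of the stabilizer of a line in `SL_n(q)`, `n` and `q` odd (helper131, S4785, part C4)
-/

set_option autoImplicit false
set_option linter.unusedSectionVars false

namespace Cfsg.Agent.H131.OddP1

open Module Matrix Cfsg.Agent.H453.OddM Cfsg.Agent.H131.OddChain

section

variable {F : Type*} [Field F] {n : ℕ} {H : Subgroup (SpecialLinearGroup (Fin n) F)} {v : Fin n → F}

theorem toLin_eq (A : SpecialLinearGroup (Fin n) F) (x : Fin n → F) : SpecialLinearGroup.toLin' A x = ac A x := by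
  rw [SpecialLinearGroup.toLin'_apply, Matrix.toLin'_apply]
  rfl

/-- the case `O_p(P_1) ≤ H` -/
theorem false_of_rad [Finite F] (hn : Odd n) (hn3 : 3 ≤ n) (hH : RO _ H) (hv : v ≠ 0) (hHv : H ≤ lineStab v)
    (hr : rad v ≤ H) : False := by
  let ρ : ↥H →* ((Fin n → F) ≃ₗ[F] (Fin n → F)) := (SpecialLinearGroup.toLin' (R := F) (n := Fin n)).comp H.subtype
  have A : Sit (↥H) ρ v := by
    refine ⟨fun c h C => rfl, hv, fun h => ?_, fun φ hφ => ?_⟩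
    · obtain ⟨c, -, hc⟩ := hHv h.2
      refine Submodule.mem_span_singleton.2 ⟨c, ?_⟩
      change c • v = SpecialLinearGroup.toLin' (h : SpecialLinearGroup (Fin n) F) v
      rw [toLin_eq, hc]
    · let w : Fin n → F := fun i => φ (Pi.single i 1)
      have hw : ∀ y, w ⬝ᵥ y = φ y := by
        intro y
        rw [dotProduct]
        have h2 : φ y = φ (∑ i, y i • Pi.single i (1 : F)) := by
          congr 1
          funext j
          simp [Finset.sum_apply, Pi.single_apply]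
        rw [h2, map_sum]
        refine Finset.sum_congr rfl fun i _ => ?_
        rw [map_smul, smul_eq_mul, mul_comm]
      have hwv : w ⬝ᵥ v = 0 := by rw [hw, hφ]
      refine ⟨⟨tv v w hwv, hr (tv_mem hwv)⟩, fun x => ?_⟩
      change SpecialLinearGroup.toLin' (tv v w hwv) x = _
      rw [toLin_eq, tv_ac, hw]
  obtain ⟨C1⟩ := exists_chain (F := F) (n := n)
  have t1 : ∀ C D : Chain F (Fin n → F) 1, ∃ g : SpecialLinearGroup (Fin n) F, g • C = D := exists_sl (by omega)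
  have t2 := exists_sl_step (by omega) t1
  have t3 := exists_sl_step (by omega) t2
  refine A.not_all_odd (by rw [finrank_V]; exact hn3) (by rw [finrank_V]; exact hn) ?_ ?_ ?_
  · exact ro_orb_set hH C1 (t1 C1)
  · exact ro_orb_set hH C1.drop (t2 C1.drop)
  · exact ro_orb_set hH C1.drop.drop (t3 C1.drop.drop)

/-- the case `O_p(P_1) ∩ H = 1` -/
theorem false_of_bot [Finite F] (h2 : (2 : F) ≠ 0) (hn : Odd n) (hn3 : 3 ≤ n) (hH : RO _ H) (hv : v ≠ 0)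
    (hHv : H ≤ lineStab v) (hr : H ⊓ rad v = ⊥) : False := by
  obtain ⟨k, hk⟩ := Function.ne_iff.1 hv
  have hk' : v k ≠ 0 := hk
  obtain ⟨ψ, hψ⟩ : ∃ ψ : Fin n → F, ψ ⬝ᵥ v = 1 := by
    refine ⟨Pi.single k (v k)⁻¹, ?_⟩
    rw [single_dotProduct, inv_mul_cancel₀ hk']
  obtain ⟨τ, hττ, hτ⟩ := exists_tau hn hψ
  have hτv : ac τ v = v := by
    rw [hτ, hψ, mul_one, two_smul, neg_add_cancel_left]
  have hτP : τ ∈ lineStab v := ⟨1, one_ne_zero, by rw [hτv, one_smul]⟩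
  -- a conjugate of `τ` in `H`
  obtain ⟨g, hg⟩ : ∃ g ∈ lineStab v, g * τ * g⁻¹ ∈ H := by
    have hidx : Odd (H.subgroupOf (lineStab v)).index := by
      have h1 : (H.subgroupOf (lineStab v)).index * (lineStab v).index = H.index :=
        Subgroup.relIndex_mul_index hHv
      refine Odd.of_dvd_nat hH.odd_index ?_
      rw [← h1]
      exact Dvd.intro _ rfl
    have hQ : IsPGroup 2 ↥(Subgroup.zpowers (⟨τ, hτP⟩ : ↥(lineStab v))) := by
      refine IsPGroup.of_card_dvd_pow (n := 1) ?_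
      rw [Nat.card_zpowers, pow_one]
      refine orderOf_dvd_of_pow_eq_one ?_
      rw [pow_two]
      exact Subtype.ext hττ
    obtain ⟨g, hg⟩ := Cov.two_group hidx hQ
    exact ⟨g, g.2, hg _ (Subgroup.mem_zpowers _)⟩
  obtain ⟨hgP, hgH⟩ := hg
  obtain ⟨c, hc, hgv⟩ := hgP
  have hgv' : ac g⁻¹ v = c⁻¹ • v := by
    have h1 := ac_inv g v
    rw [hgv, ac_smul] at h1
    rw [← h1, smul_smul, inv_mul_cancel₀ hc, one_smul, h1]
  obtain ⟨τ', hτ'⟩ : ∃ τ', τ' = g * τ * g⁻¹ := ⟨_, rfl⟩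
  have hτ'2 : τ'⁻¹ = τ' := by
    rw [inv_eq_iff_mul_eq_one, hτ']
    calc g * τ * g⁻¹ * (g * τ * g⁻¹) = g * (τ * τ) * g⁻¹ := by group
      _ = 1 := by rw [hττ]; group
  have hτ'v : ac τ' v = v := by
    rw [hτ', ac_mul, ac_mul, hgv', ac_smul, hτv, ac_smul, hgv, smul_smul, inv_mul_cancel₀ hc, one_smul]
  have hτ'x : ∀ x, ∃ a : F, ac τ' x = -x + a • v := by
    intro x
    refine ⟨2 * (ψ ⬝ᵥ ac g⁻¹ x) * c, ?_⟩
    have hneg : ∀ y, ac g (-y) = -ac g y := fun y => mulVec_neg _ _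
    rw [hτ', ac_mul, ac_mul, hτ, ac_add, hneg, ac_inv', ac_smul, hgv, smul_smul]
  have hcomm : ∀ h ∈ H, h * τ' = τ' * h := by
    intro h hh
    obtain ⟨d, hd, hhv⟩ := hHv hh
    have hhv' : ac h⁻¹ v = d⁻¹ • v := by
      have h1 := ac_inv h v
      rw [hhv, ac_smul] at h1
      rw [← h1, smul_smul, inv_mul_cancel₀ hd, one_smul, h1]
    have h1 : h * τ' * h⁻¹ * τ'⁻¹ ∈ H ⊓ rad v := by
      refine ⟨H.mul_mem (H.mul_mem (H.mul_mem hh (hτ' ▸ hgH)) (H.inv_mem hh)) (H.inv_mem (hτ' ▸ hgH)), ?_, ?_⟩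
      · rw [hτ'2, ac_mul, ac_mul, ac_mul, hτ'v, hhv', ac_smul, hτ'v, ac_smul, hhv, smul_smul, inv_mul_cancel₀ hd,
          one_smul]
      · intro x
        obtain ⟨a, ha⟩ := hτ'x x
        obtain ⟨b, hb⟩ := hτ'x (ac h⁻¹ (ac τ' x))
        have hneg : ∀ y, ac h (-y) = -ac h y := fun y => mulVec_neg _ _
        refine ⟨b * d - a, ?_⟩
        rw [hτ'2, ac_mul, ac_mul, ac_mul, hb, ac_add, hneg, ac_inv', ha, ac_smul, hhv, smul_smul, sub_smul, neg_add,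
          neg_neg, add_assoc, sub_eq_neg_add]
    rw [hr, Subgroup.mem_bot, mul_inv_eq_one, mul_inv_eq_iff_eq_mul] at h1
    exact h1
  -- the regular unipotent element
  obtain ⟨g', hg'⟩ := hH.exists_conj (ru_real (F := F) hn)
  have hc1 := hcomm _ hg'
  obtain ⟨k0, hk0⟩ : ∃ k0, k0 = g'⁻¹ * g := ⟨_, rfl⟩
  have hc2 : ru n F * (k0 * τ * k0⁻¹) = (k0 * τ * k0⁻¹) * ru n F := by
    rw [hτ'] at hc1
    calc ru n F * (k0 * τ * k0⁻¹) = g'⁻¹ * (g' * ru n F * g'⁻¹ * (g * τ * g⁻¹)) * g' := by rw [hk0]; group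
      _ = g'⁻¹ * (g * τ * g⁻¹ * (g' * ru n F * g'⁻¹)) * g' := by rw [hc1]
      _ = _ := by rw [hk0]; group
  obtain ⟨a, ha⟩ : ∃ a, a = ac k0 v := ⟨_, rfl⟩
  obtain ⟨φ, hφ⟩ : ∃ φ : Fin n → F, ∀ x, φ ⬝ᵥ x = ψ ⬝ᵥ ac k0⁻¹ x :=
    ⟨ψ ᵥ* (k0⁻¹).1, fun x => (dotProduct_mulVec ψ (k0⁻¹).1 x).symm⟩
  have hφa : φ ⬝ᵥ a = 1 := by rw [hφ, ha, ac_inv, hψ]
  have ha0 : a ≠ 0 := by
    rintro h
    rw [h, dotProduct_zero] at hφa
    exact zero_ne_one hφa
  have hτ'' : ∀ x, ac (k0 * τ * k0⁻¹) x = -x + (2 * (φ ⬝ᵥ x)) • a := by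
    intro x
    have hneg : ∀ y, ac k0 (-y) = -ac k0 y := fun y => mulVec_neg _ _
    rw [ac_mul, ac_mul, hτ, ac_add, hneg, ac_inv', ac_smul, ← ha, hφ]
  have hkey : ∀ x, (φ ⬝ᵥ x) • ac (ru n F) a = (φ ⬝ᵥ ac (ru n F) x) • a := by
    intro x
    have h3 : ac (ru n F * (k0 * τ * k0⁻¹)) x = ac ((k0 * τ * k0⁻¹) * ru n F) x := by rw [hc2]
    have hneg : ∀ y, ac (ru n F) (-y) = -ac (ru n F) y := fun y => mulVec_neg _ _
    rw [ac_mul, ac_mul (k0 * τ * k0⁻¹), hτ'', hτ'', ac_add, hneg, ac_smul] at h3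
    have h4 := add_left_cancel h3
    rw [mul_smul, mul_smul] at h4
    exact smul_right_injective _ h2 h4
  have h5 := hkey a
  rw [hφa, one_smul] at h5
  refine ru_false h2 (by omega) h5 ?_ hφa
  funext j
  have h6 := hkey (Pi.single j 1)
  rw [h5, smul_smul] at h6
  have h7 : (φ ⬝ᵥ Pi.single j 1) * (φ ⬝ᵥ ac (ru n F) a) = φ ⬝ᵥ ac (ru n F) (Pi.single j 1) := by
    have h8 : ((φ ⬝ᵥ Pi.single j 1) * (φ ⬝ᵥ ac (ru n F) a) - φ ⬝ᵥ ac (ru n F) (Pi.single j 1)) • a = 0 := by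
      rw [sub_smul, h6, sub_self]
    exact sub_eq_zero.1 ((smul_eq_zero.1 h8).resolve_right ha0)
  rw [dotProduct_single, mul_one] at h7
  rw [Pi.smul_apply, smul_eq_mul, mul_comm, h7]
  have h9 := dotProduct_mulVec φ (ru n F).1 (Pi.single j 1)
  rw [dotProduct_single, mul_one] at h9
  exact h9.symm

/-- **the stabilizer of a line in `SL_n(q)`** -/
theorem sl_false [Finite F] (h2 : (2 : F) ≠ 0) (hn : Odd n) (hn3 : 3 ≤ n) {p r N : ℕ} (hp : p.Prime) (hr : r.Prime)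
    (hrp : r ≠ p) (hN : Nat.card F ^ (n - 1) = p ^ N) (hrq : Nat.Coprime r (Nat.card F - 1))
    (hprim : ∀ i, 0 < i → i < N → ¬ r ∣ p ^ i - 1) (hreal : RealP (SpecialLinearGroup (Fin n) F) r) (hH : RO _ H)
    (hv : v ≠ 0) (hHv : H ≤ lineStab v) : False := by
  obtain ⟨x, hx, hxr⟩ := hreal
  obtain ⟨g, hg⟩ := hH.exists_conj hxr
  have ho : orderOf (g * x * g⁻¹) = r := by
    rw [← hx]
    exact orderOf_injective (MulAut.conj g).toMonoidHom (MulAut.conj g).injective x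
  have hU : Nat.card ↥(rad v) = p ^ N := by rw [card_rad hv, hN]
  rcases inv_sub hp hr hrp hU (X := H ⊓ rad v) inf_le_right ho (fun u hu => conj_mem_rad (hHv hg) hu)
    (fun u hu => ⟨H.mul_mem (H.mul_mem hg hu.1) (H.inv_mem hg), conj_mem_rad (hHv hg) hu.2⟩) hprim with h | h | h
  · exact false_of_bot h2 hn hn3 hH hv hHv h
  · exact false_of_rad hn hn3 hH hv hHv (by rw [← h]; exact inf_le_left)
  · have h1 := mem_rad_of_comm hv ho hrq (hHv hg) h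
    have h3 : r ∣ p ^ N := by
      rw [← hU, ← ho, ← Subgroup.orderOf_mk _ h1]
      exact orderOf_dvd_natCard _
    exact hrp ((Nat.prime_dvd_prime_iff_eq hr hp).1 (hr.dvd_of_dvd_pow h3))

end

end Cfsg.Agent.H131.OddP1
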